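import Mathlib
import Cfsg.Agent.SPOR.KComp

/-!
The centraliser `2^(1+8).(A₅ × A₅).2` of a two-central involution of HN: model and interface.
`𝔽₄ = {0, 1, 2 = ω, 3 = ω²}` (addition is xor); the matrix `[[p, q], [r, s]]` has the code
`p + 4 q + 16 r + 64 s < 256` (addition is xor).  `1 ↦ 65`, `ω ↦ 130`, `e₁₂ ↦ 4`, `e₂₁ ↦ 16`.
-/

set_option autoImplicit false

namespace CL.HK

open CL.K

/-- product in `𝔽₄` -/
def fm (a b : ℕ) : ℕ :=
  Nat.land (Nat.shiftRight 0x9c78e400 (Nat.mul 2 (Nat.add (Nat.mul 4 a) b))) 3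

/-- entry number `i` (`0, 1, 2, 3` are the places `11, 12, 21, 22`) -/
def en (X i : ℕ) : ℕ := Nat.land (Nat.shiftRight X (Nat.mul 2 i)) 3

/-- the matrix `[[p, q], [r, s]]` -/
def mx (p q r s : ℕ) : ℕ :=
  Nat.add (Nat.add p (Nat.mul 4 q)) (Nat.add (Nat.mul 16 r) (Nat.mul 64 s))

/-- product of matrices -/
noncomputable def mm (A B : ℕ) : ℕ := force A fun A => force B fun B =>
  mx (Nat.xor (fm (en A 0) (en B 0)) (fm (en A 1) (en B 2)))
    (Nat.xor (fm (en A 0) (en B 1)) (fm (en A 1) (en B 3)))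
    (Nat.xor (fm (en A 2) (en B 0)) (fm (en A 3) (en B 2)))
    (Nat.xor (fm (en A 2) (en B 1)) (fm (en A 3) (en B 3)))

/-- determinant -/
noncomputable def det (A : ℕ) : ℕ := force A fun A =>
  Nat.xor (fm (en A 0) (en A 3)) (fm (en A 1) (en A 2))

/-- trace -/
noncomputable def tr (A : ℕ) : ℕ := force A fun A => Nat.xor (en A 0) (en A 3)

/-- transpose -/
noncomputable def tp (A : ℕ) : ℕ := force A fun A => mx (en A 0) (en A 2) (en A 1) (en A 3)

/-- entrywise conjugation `x ↦ x²` (on codes below `256`) -/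
noncomputable def cj (A : ℕ) : ℕ := force A fun A =>
  Nat.xor A (Nat.land (Nat.shiftRight A 1) 85)

/-- `0`: identity, `1`: conjugate transpose, `2`: transpose, `3`: conjugation -/
noncomputable def fe (e X : ℕ) : ℕ :=
  bif Nat.beq e 0 then X else bif Nat.beq e 1 then tp (cj X) else bif Nat.beq e 2 then tp X else cj X

/-- the model action `X ↦ a * fe e X * b`; `Γ₀`: `e < 2`, `Γ₁`: `e < 4` -/
noncomputable def act (a b e X : ℕ) : ℕ := mm a (mm (fe e X) b)

/-- the quadratic form `Tr (det X)` (`true` is `1`) -/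
noncomputable def q (X : ℕ) : Bool := Nat.ble 2 (det X)

/-- its polar form -/
noncomputable def bf (X Y : ℕ) : Bool := force X fun X => force Y fun Y =>
  xor (q (Nat.xor X Y)) (xor (q X) (q Y))

/-- rank one -/
noncomputable def rk (X : ℕ) : Bool := force X fun X => !Nat.beq X 0 && Nat.beq (det X) 0

/-- codes of `SL₂(4)` -/
def SL (a : ℕ) : Prop := a < 256 ∧ det a = 1

/-- loop over all triples with `e < n` -/
noncomputable def allT (n : ℕ) (P : ℕ → ℕ → ℕ → Bool) : Bool :=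
  allLt (fun a => force a fun a => !Nat.beq (det a) 1 || allLt (fun b => force b fun b =>
    !Nat.beq (det b) 1 || allLt (fun e => force e fun e => P a b e) n) 256) 256

theorem allT_spec {n : ℕ} {P : ℕ → ℕ → ℕ → Bool} (h : allT n P = true) {a b e : ℕ} (ha : SL a)
    (hb : SL b) (he : e < n) : P a b e = true := by
  have h1 := allLt_iff.1 h a ha.1
  simp only [force_eq, ha.2, Nat.beq_refl, Bool.not_true, Bool.false_or, allLt_iff] at h1
  have h2 := h1 b hb.1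
  simp only [hb.2, Nat.beq_refl, Bool.not_true, Bool.false_or, allLt_iff] at h2
  exact h2 e he

variable {G : Type*} [Group G]

/-- `g` centralises `t` and acts on the codes by `f` -/
def Ac (t : G) (E : Subgroup G) (κ : G → ℕ) (g : G) (f : ℕ → ℕ) : Prop :=
  g * t = t * g ∧ ∀ y ∈ E, κ (g * y * g⁻¹) = f (κ y)

/-- coordinates on the extraspecial group `E` with centre `t` -/
structure EK (t : G) (E : Subgroup G) (κ : G → ℕ) : Prop where
  tt : t * t = 1
  t1 : t ≠ 1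
  tE : t ∈ E
  ct : ∀ y ∈ E, y * t = t * y
  lt : ∀ y ∈ E, κ y < 256
  mul : ∀ x ∈ E, ∀ y ∈ E, κ (x * y) = κ x ^^^ κ y
  surj : ∀ v < 256, ∃ y ∈ E, κ y = v
  zero : ∀ y ∈ E, κ y = 0 ↔ y = 1 ∨ y = t
  sq : ∀ y ∈ E, y * y = bif q (κ y) then t else 1

/-- the centraliser of `t` acts on `E` through `Γ₀` (`n = 2`) or `Γ₁` (`n = 4`) and covers `Γ₀` -/
structure Kt (n : ℕ) (t : G) (E : Subgroup G) (κ : G → ℕ) : Prop extends EK t E κ where
  nrm : ∀ g, g * t = t * g → ∀ y ∈ E, g * y * g⁻¹ ∈ E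
  cls : ∀ y ∈ E, IsConj t y ↔ y = t ∨ rk (κ y) = true
  ac : ∀ g, g * t = t * g → ∃ a b e, SL a ∧ SL b ∧ e < n ∧ Ac t E κ g (act a b e)
  ker : ∀ g, Ac t E κ g id → g ∈ E
  exL : ∀ a ∈ [20, 69, 194], ∃ g, Ac t E κ g (mm a)
  exS : ∃ g, Ac t E κ g (fe 1)
  sym : ∃ g, g * t * g⁻¹ ∈ E ∧ g * t * g⁻¹ ≠ t ∧ g⁻¹ * t * g ∈ E

/-! ### codes -/

theorem all256 {P : ℕ → Bool} (h : allLt (fun a => force a P) 256 = true) {a : ℕ} (ha : a < 256) :
    P a = true := force_eq a P ▸ allLt_iff.1 h a ha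

theorem all2 {P : ℕ → ℕ → Bool}
    (h : allLt (fun a => force a fun a => allLt (fun b => force b (P a)) 256) 256 = true) {a b : ℕ}
    (ha : a < 256) (hb : b < 256) : P a b = true :=
  all256 (all256 (P := fun a => allLt (fun b => force b (P a)) 256) h ha) hb

theorem xor_lt {a b : ℕ} (ha : a < 256) (hb : b < 256) : a ^^^ b < 256 :=
  Nat.xor_lt_two_pow (n := 8) ha hb

/-- induction over the codes as a vector space -/
theorem ind256 {P : ℕ → Prop} (h0 : P 0) (h1 : ∀ X Y, X < 256 → Y < 256 → P X → P Y → P (X ^^^ Y))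
    (h2 : ∀ i < 8, P (2 ^ i)) : ∀ X < 256, P X := by
  intro X
  induction X using Nat.strong_induction_on with
  | _ X ih =>
    intro hX
    rcases (by decide +kernel : ∀ X < 256, X = 0 ∨ ∃ i < 8, X ^^^ 2 ^ i < X ∧ 2 ^ i < 256) X hX with
      rfl | ⟨i, hi, e, e'⟩
    · exact h0
    · have := h1 _ _ (e.trans hX) e' (ih _ e (e.trans hX)) (h2 i hi)
      rwa [Nat.xor_assoc, Nat.xor_self, Nat.xor_zero] at this

theorem fm_lt (a b : ℕ) : fm a b < 2 ^ 2 := Nat.lt_succ_of_le Nat.and_le_right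

theorem mm_lt (A B : ℕ) : mm A B < 256 := by
  have h : ∀ a b c d, Nat.xor (fm a b) (fm c d) < 4 := fun a b c d =>
    Nat.xor_lt_two_pow (fm_lt a b) (fm_lt c d)
  rw [mm, force_eq, force_eq, mx]
  have h1 := h (en A 0) (en B 0) (en A 1) (en B 2)
  have h2 := h (en A 0) (en B 1) (en A 1) (en B 3)
  have h3 := h (en A 2) (en B 0) (en A 3) (en B 2)
  have h4 := h (en A 2) (en B 1) (en A 3) (en B 3)
  simp only [Nat.add_eq, Nat.mul_eq]
  omega

theorem act_lt (a b e X : ℕ) : act a b e X < 256 := mm_lt _ _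

theorem fe_lt {e X : ℕ} (he : e < 4) (hX : X < 256) : fe e X < 256 := by
  have := all256 (P := fun X => allLt (fun e => Nat.blt (fe e X) 256) 4) (by decide +kernel) hX
  exact Nat.blt_eq ▸ (allLt_iff.1 this e he)

theorem det_fe {e X : ℕ} (he : e < 4) (hX : X < 256) :
    q (fe e X) = q X ∧ rk (fe e X) = rk X ∧ (det (fe e X) = 1 ↔ det X = 1) := by
  have := allLt_iff.1 (all256 (P := fun X => allLt (fun e => (q (fe e X) == q X) &&
    (rk (fe e X) == rk X) && (Nat.beq (det (fe e X)) 1 == Nat.beq (det X) 1)) 4)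
    (by decide +kernel) hX) e he
  simp only [Bool.and_eq_true, beq_iff_eq] at this
  exact ⟨this.1.1, this.1.2, by rw [← Nat.beq_eq, this.2, Nat.beq_eq]⟩

theorem det_mm {a X : ℕ} (ha : SL a) (hX : X < 256) : det (mm a X) = det X ∧ det (mm X a) = det X ∧
    (mm a X = 0 ↔ X = 0) ∧ (mm X a = 0 ↔ X = 0) := by
  have := all2 (P := fun a X => !Nat.beq (det a) 1 || (Nat.beq (det (mm a X)) (det X) &&
    Nat.beq (det (mm X a)) (det X) && (Nat.beq (mm a X) 0 == Nat.beq X 0) &&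
      (Nat.beq (mm X a) 0 == Nat.beq X 0))) (by decide +kernel) ha.1 hX
  simp only [ha.2, Nat.beq_refl, Bool.not_true, Bool.false_or, Bool.and_eq_true, beq_iff_eq,
    Nat.beq_eq] at this
  exact ⟨this.1.1.1, this.1.1.2, by rw [← Nat.beq_eq, this.1.2, Nat.beq_eq],
    by rw [← Nat.beq_eq, this.2, Nat.beq_eq]⟩

theorem rk_iff {X : ℕ} : rk X = true ↔ X ≠ 0 ∧ det X = 0 := by
  rw [rk, force_eq, Bool.and_eq_true, Bool.not_eq_true', Bool.eq_false_iff, Ne, Nat.beq_eq, Nat.beq_eq]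

theorem inv_act {a b e X : ℕ} (ha : SL a) (hb : SL b) (he : e < 4) (hX : X < 256) :
    q (act a b e X) = q X ∧ rk (act a b e X) = rk X ∧ (det (act a b e X) = 1 ↔ det X = 1) := by
  have h1 := det_mm ha (mm_lt (fe e X) b)
  have h2 := det_mm hb (fe_lt he hX)
  have h3 := det_fe he hX
  have h4 : det (act a b e X) = det (fe e X) := h1.1.trans h2.2.1
  refine ⟨?_, ?_, h4 ▸ h3.2.2⟩
  · rw [← h3.1, q, h4, q]
  · rw [← h3.2.1, Bool.eq_iff_iff, rk_iff, rk_iff, h4, act, Ne, h1.2.2.1, h2.2.2.2]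

theorem bf_eq (X Y : ℕ) : bf X Y = xor (q (X ^^^ Y)) (xor (q X) (q Y)) := by
  rw [bf, force_eq, force_eq]; rfl

/-! ### the group side -/

section
variable {t : G} {E : Subgroup G} {κ : G → ℕ} {g g' x y : G} {f f' : ℕ → ℕ}

namespace EK
variable (h : EK t E κ)
include h

theorem κ_one : κ 1 = 0 := (h.zero 1 E.one_mem).2 (.inl rfl)
theorem κ_t : κ t = 0 := (h.zero t h.tE).2 (.inr rfl)
theorem t_inv : t⁻¹ = t := inv_eq_of_mul_eq_one_right h.tt

theorem κ_inv (hx : x ∈ E) : κ x⁻¹ = κ x := by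
  have := h.mul _ (E.inv_mem hx) x hx
  rw [inv_mul_cancel, h.κ_one] at this
  exact Nat.xor_eq_zero_iff.1 this.symm

theorem κ_mul_t (hx : x ∈ E) : κ (x * t) = κ x := by
  rw [h.mul x hx t h.tE, h.κ_t, Nat.xor_zero]

theorem eq_or (hx : x ∈ E) (hy : y ∈ E) (e : κ x = κ y) : x = y ∨ x = y * t := by
  have := (h.zero _ (E.mul_mem (E.inv_mem hy) hx)).1 (by
    rw [h.mul _ (E.inv_mem hy) x hx, h.κ_inv hy, e, Nat.xor_self])
  exact this.imp (fun e => (inv_mul_eq_one.1 e).symm) fun e => inv_mul_eq_iff_eq_mul.1 e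

theorem κ_conj (hx : x ∈ E) (hy : y ∈ E) : κ (x * y * x⁻¹) = κ y := by
  rw [h.mul _ (E.mul_mem hx hy) _ (E.inv_mem hx), h.mul x hx y hy, h.κ_inv hx, Nat.xor_comm (κ x),
    Nat.xor_assoc, Nat.xor_self, Nat.xor_zero]

theorem ac_mem (hx : x ∈ E) : Ac t E κ x id := ⟨h.ct x hx, fun _ hy => h.κ_conj hx hy⟩

theorem sq_one (hx : x ∈ E) : x * x = 1 ↔ q (κ x) = false := by
  rw [h.sq x hx]; cases q (κ x) <;> simp [h.t1]

theorem sq_t (hx : x ∈ E) : x * x = t ↔ q (κ x) = true := by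
  rw [h.sq x hx]; cases q (κ x) <;> simp [h.t1.symm]

theorem conj_eq (hx : x ∈ E) (hy : y ∈ E) :
    x * y * x⁻¹ = bif bf (κ x) (κ y) then y * t else y := by
  have e2 : x * y * x⁻¹ = (x * x) * ((x⁻¹ * y) * (x⁻¹ * y)) * (y * y)⁻¹ * y := by group
  have hi := E.inv_mem hx
  rw [e2, h.sq x hx, h.sq y hy, h.sq _ (E.mul_mem hi hy), h.mul _ hi y hy, h.κ_inv hx, bf_eq]
  cases q (κ x) <;> cases q (κ y) <;> cases q (κ x ^^^ κ y) <;>
    simp [h.tt, h.t_inv, h.ct y hy]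

theorem comm_iff (hx : x ∈ E) (hy : y ∈ E) : x * y = y * x ↔ bf (κ x) (κ y) = false := by
  rw [← mul_inv_eq_iff_eq_mul, h.conj_eq hx hy]
  cases bf (κ x) (κ y) <;> simp [h.t1]

end EK

theorem Ac.mul (hn : ∀ y ∈ E, g' * y * g'⁻¹ ∈ E) (h : Ac t E κ g f) (h' : Ac t E κ g' f') :
    Ac t E κ (g * g') (f ∘ f') :=
  ⟨by rw [mul_assoc, h'.1, ← mul_assoc, h.1, mul_assoc], fun y hy => by
    rw [show g * g' * y * (g * g')⁻¹ = g * (g' * y * g'⁻¹) * g⁻¹ by group, h.2 _ (hn y hy), h'.2 y hy]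
    rfl⟩

theorem Ac.congr (hk : EK t E κ) (h : Ac t E κ g f) (e : ∀ X < 256, f X = f' X) : Ac t E κ g f' :=
  ⟨h.1, fun y hy => (h.2 y hy).trans (e _ (hk.lt y hy))⟩

/-- the action is additive -/
theorem Ac.xor (hk : EK t E κ) (hn : ∀ y ∈ E, g * y * g⁻¹ ∈ E) (h : Ac t E κ g f) {X Y : ℕ}
    (hX : X < 256) (hY : Y < 256) : f (X ^^^ Y) = f X ^^^ f Y := by
  obtain ⟨x, hx, rfl⟩ := hk.surj X hX
  obtain ⟨y, hy, rfl⟩ := hk.surj Y hY
  rw [← hk.mul x hx y hy, ← h.2 _ (E.mul_mem hx hy), ← h.2 x hx, ← h.2 y hy,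
    ← hk.mul _ (hn x hx) _ (hn y hy), conj_mul]

theorem Ac.unique (hk : EK t E κ) (h : Ac t E κ g f) (h' : Ac t E κ g f') {X : ℕ} (hX : X < 256) :
    f X = f' X := by
  obtain ⟨x, hx, rfl⟩ := hk.surj X hX
  exact (h.2 x hx).symm.trans (h'.2 x hx)

/-- an additive map which fixes a basis is the identity -/
theorem Ac.id_of (hk : EK t E κ) (hn : ∀ y ∈ E, g * y * g⁻¹ ∈ E) (h : Ac t E κ g f)
    (e : ∀ i < 8, f (2 ^ i) = 2 ^ i) : Ac t E κ g id := by
  refine h.congr hk fun X hX => ?_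
  have h0 : f 0 = 0 := by
    have := h.2 1 E.one_mem
    rwa [mul_one, mul_inv_cancel, hk.κ_one, eq_comm] at this
  exact ind256 (P := fun X => f X = X) h0 (fun X Y hX hY a b => by rw [h.xor hk hn hX hY, a, b]) e X hX

namespace Kt
variable {n : ℕ} (h : Kt n t E κ)
include h

theorem acm (a : Ac t E κ g f) (a' : Ac t E κ g' f') : Ac t E κ (g * g') (f ∘ f') :=
  a.mul (h.nrm g' a'.1) a'

theorem mono {m : ℕ} (hm : n ≤ m) : Kt m t E κ :=
  { h with ac := fun g hg => (h.ac g hg).imp fun _ => .imp fun _ => .imp fun _ a =>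
      ⟨a.1, a.2.1, a.2.2.1.trans_le hm, a.2.2.2⟩ }

theorem ex_left {a : ℕ} (ha : SL a) : ∃ g, Ac t E κ g (mm a) := by
  let R := 0x98000000e700000016000000013e80000000d8001f000c80000000e0000002f02a00000900000700001000000300003b000000024000dc068000000000f0009c001d0005c0000000c40033000000021a00000440000540000500000280000b00000000022039000000c0000001e02d000d40000000a40034000b800000000060002c00009400008c000008000000000000034c6050000000000006526c800000000000000000000000000000082b101000000000000000000000000000000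
  have k : ∀ a, SL a → a = 65 ∨ ∃ c ∈ [20, 69, 194], ∃ a', SL a' ∧ fld 6 63 R a' < fld 6 63 R a ∧
      ∀ X < 256, mm c (mm a' X) = mm a X := fun a ha => by
    have := all256 (P := fun a => !Nat.beq (det a) 1 || Nat.beq a 65 || anyLt (fun i =>
      force ([20, 69, 194].getD i 0) fun c => force (mm (mm c (mm c (mm c (mm c c)))) a) fun a' =>
        Nat.beq (det a') 1 && Nat.blt (fld 6 63 R a') (fld 6 63 R a) &&
          allLt (fun X => force X fun X => Nat.beq (mm c (mm a' X)) (mm a X)) 256) 3)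
      (by decide +kernel) ha.1
    simp only [ha.2, Nat.beq_refl, Bool.not_true, Bool.false_or, Bool.or_eq_true, Nat.beq_eq,
      anyLt_iff, force_eq, Bool.and_eq_true, Nat.blt_eq, allLt_iff] at this
    refine this.imp_right fun ⟨i, hi, h1, h2⟩ => ⟨_, ?_, _, ⟨mm_lt _ _, h1.1⟩, h1.2, h2⟩
    interval_cases i <;> simp
  induction hn : fld 6 63 R a using Nat.strong_induction_on generalizing a with
  | _ m ih =>
    rcases k a ha with rfl | ⟨c, hc, a', h1, h2, h3⟩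
    · exact ⟨1, (h.ac_mem E.one_mem).congr h.toEK fun X hX => Nat.eq_of_beq_eq_true
        (all256 (P := fun X => Nat.beq X (mm 65 X)) (by decide +kernel) hX)⟩
    · obtain ⟨g, hg⟩ := ih _ (hn ▸ h2) h1 rfl
      obtain ⟨g', hg'⟩ := h.exL c hc
      exact ⟨g' * g, (h.acm hg' hg).congr h.toEK h3⟩

/-- all of `Γ₀` is induced -/
theorem ex {a b e : ℕ} (ha : SL a) (hb : SL b) (he : e < 2) : ∃ g, Ac t E κ g (act a b e) := by
  obtain ⟨s, hs⟩ := h.exS
  obtain ⟨g, hg⟩ := h.ex_left ha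
  have k := all256 (P := fun b => !Nat.beq (det b) 1 || Nat.beq (det (fe 1 b)) 1 &&
    allLt (fun X => force X fun X => Nat.beq (fe 1 (mm (fe 1 b) (fe 1 X))) (mm X b)) 256)
    (by decide +kernel) hb.1
  simp only [hb.2, Nat.beq_refl, Bool.not_true, Bool.false_or, Bool.and_eq_true, Nat.beq_eq] at k
  obtain ⟨g', hg'⟩ := h.ex_left (a := fe 1 b) ⟨fe_lt (by norm_num) hb.1, k.1⟩
  have hr : Ac t E κ (s * (g' * s)) (mm · b) := (h.acm hs (h.acm hg' hs)).congr h.toEK fun X hX =>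
    Nat.eq_of_beq_eq_true (all256 k.2 hX)
  interval_cases e
  · exact ⟨_, h.acm hg hr⟩
  · exact ⟨_, h.acm hg (h.acm hr hs)⟩

end Kt

end

end CL.HK
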