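import Mathlib
import Cfsg.Agent.SPOR.HK.Defs

/-!
The frame around a non-central involution `u` of `E` which is not conjugate to `t`.
API: `HK/Defs` (`EK.eq_or`, `conj_eq`, `comm_iff`, `sq_one`, `Kt.ex`, `Kt.acm`, `Ac.id_of`, `inv_act`, `allT_spec`,
`all256`, `all2`).  Python mirror of the model: `tools/hk/m2.py`.  Write `K = C(t)`, `E_v = g E g⁻¹` for
`v = g t g⁻¹`.  ADJUST: if `g ∈ K` and `κ (g y g⁻¹) = κ y' ≠ 0` then `g y g⁻¹ ∈ {y', y' t}` (`eq_or`), and some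
`e ∈ E` (with `bf (κ e) (κ y') = true`) conjugates `y' t` to `y'`; `e * g` acts on the codes as `g` does.

`symm`: `d = g t g⁻¹`.  If `d = t` trivial.  Else `rk (κ d)` (`cls`); `sym` gives `g₀`, `d₀`.  For each rank one
`X` there are `a, b` with `act a b 0 X = 4` (decide), so (`ex`, ADJUST) some `m ∈ K` has `m d m⁻¹ = d₀`;
`c = g₀⁻¹ m g ∈ K` and `g⁻¹ t g = c⁻¹ (g₀⁻¹ t g₀) c ∈ E` by `nrm`.

`memU`: first for `κ d = 4`.  `A = {y ∈ E | g⁻¹ y g ∈ E}` is a subgroup containing `t` (`symm`) and `d`; it is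
abelian of exponent 2 (squares and commutators lie in `⟨t⟩ ∩ ⟨d⟩ = 1`), so `q = false`, `bf = false` on `κ A`.
If `m ∈ K` acts by a triple fixing `4`, ADJUST so that `m d m⁻¹ = d`; then `g⁻¹ m g ∈ K`, so `m` normalises `A`;
and membership in `A` depends only on the code.  So `κ A` is invariant under the triples with `e < 2` fixing `4`.
(U1) `X < 256`, `q X = false`, `bf X 4 = false`, `U0 X = false` imply `bf X (act 44 56 1 X)` or `bf X (act 69 73 0 X)`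
(both triples fix `4`); hence `κ A ⊆ U0`.
(U3) `κ A ⊄ {0,4,8,12}`: otherwise let `y ∈ E_d` commute with `t`; for `x ∈ E` with `bf (κ x) 4 = false`
(`x` centralises `d`, so normalises `E_d`) `y x y⁻¹ x⁻¹ ∈ A`; a triple (`e < 4`) with `act X xor X ∈ {0,4,8,12}` for
`X ∈ [1,2,4,8,16,64,128]` (all
of them are orthogonal to `4`), is `(65,65,0)` (`allT`), so `y ∈ E` (`ker`), `y ∈ A`.  Conjugating by `g⁻¹`: the
centraliser of `t* = g⁻¹ t g` in `E` is abelian; but for all `X` there are `Y, Z` orthogonal to `X` with `bf Y Z`.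
(U2) for `X ∈ U0 ∖ {0,4,8,12}` one of the triples `(a,b,1)`, `(a,b) ∈ [(20,20),(20,84),(20,148),(20,212),(44,56),
(44,120),(44,184),(44,248),(56,44),(56,108),(56,172),(56,236)]` (they fix `4`) maps `X` to `65`; so `65 ∈ κ A`, and
the orbit of `65` under the same triples and xor give all of `U0` (`act 20 148 1 65 xor 65 = 8`, `U0` is spanned by
`4, 8, 65, 131`, `act 44 56 1` and its friends move `65` out of `{65,69,73,77}`).
For `κ d = 8, 12` conjugate by `m ∈ K` acting as `act 194 131 0` or `act 131 194 0` (these permute `4, 8, 12` and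
preserve `U0`).

`exists_fr`: choose lifts.  `V = {y ∈ E | κ y ∈ {0,4,8,12}} = ⟨t, v1, v2⟩`.
(a) for `w1, w2 ∈ V` with different non-zero codes there is `k ∈ K` centralising `u` with `k v1 k⁻¹ = w1`,
`k v2 k⁻¹ = w2`: the triples `(65,65,0), (20,20,1), (44,44,1), (131,194,0), (194,131,0), (56,56,1)` fix `65` and map
`(4,8)` to `(4,8), (4,12), (8,4), (8,12), (12,4), (12,8)`; ADJUST for `u`; then correct the factors `t` with the
elements of codes `16, 32, 48` (they centralise `u`).  This gives `b`.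
(b) `v1 = g t g⁻¹` (`cls`).  `u, t, v1, v2 ∈ E_{v1}` (`memU`, `symm`).  In the coordinates `y ↦ κ (g⁻¹ y g)` the codes
of `u` and `t` are different and non-zero (`u ∉ {1, v1, t, t v1}`), so there is `e ∈ E_{v1}` centralising `u` with
`e t e⁻¹ = t v1` (decide: `X ≠ 0`, `X ≠ Y` give `Z` with `bf Z X = true`, `bf Z Y = false`); `e` maps `v1, v2` into `V`.
With `h = x0 * e`: `h t h⁻¹ = v1`, `h` centralises `u`, `h⁻¹` maps `V` to `V`.  Put `w1 = h⁻¹ v2 h`,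
`w2 = h⁻¹ (t v1) h`; `a = h k` with `k` from (a).
`aA`: `a E a⁻¹ = E_{v1}`; if `y ∈ E`, `U0 (κ y)`, then by `memU` for `g = a⁻¹` (`a⁻¹ t a = t v2`, code `8`)
`a y a⁻¹ ∈ E`, and by `memU` for `g = a` it has `U0`.  Similarly for `a⁻¹`.
-/

set_option autoImplicit false

namespace CL.HK

open CL.K

/-- the codes `[[p, q], [0, p²]]` -/
def U0 (X : ℕ) : Bool := Nat.beq (en X 2) 0 && Nat.beq (en X 3) (fm (en X 0) (en X 0))

variable {G : Type*} [Group G] {n : ℕ} {t : G} {E : Subgroup G} {κ : G → ℕ}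

theorem EK.sgn_ex (h : EK t E κ) {y y' : G} (hy : y ∈ E) (hy' : y' ∈ E) (e : κ y' = κ y) :
    ∃ s : Bool, ∀ z ∈ E, bf (κ z) (κ y) = s → z * y' * z⁻¹ = y := by
  rcases h.eq_or hy' hy e with rfl | rfl
  · exact ⟨false, fun z hz hs => by rw [h.conj_eq hz hy, hs]; rfl⟩
  · refine ⟨true, fun z hz hs => ?_⟩
    rw [h.conj_eq hz (E.mul_mem hy h.tE), h.κ_mul_t hy, hs]
    simp [mul_assoc, h.tt]

theorem bf_nd : ∀ X < 256, X ≠ 0 → ∀ s : Bool, ∃ Z < 256, bf Z X = s := by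
  intro X hX h0 s
  have := all256 (P := fun X => Nat.beq X 0 || (anyLt (fun Z => bf Z X) 256 &&
    anyLt (fun Z => !bf Z X) 256)) (by decide +kernel) hX
  simp only [Bool.or_eq_true, Nat.beq_eq, h0, false_or, Bool.and_eq_true, anyLt_iff,
    Bool.not_eq_true'] at this
  cases s
  · exact this.2
  · exact this.1

/-- ADJUST -/
theorem Kt.adj (h : Kt n t E κ) {g y y' : G} {f : ℕ → ℕ} (hg : Ac t E κ g f) (hy : y ∈ E)
    (hy' : y' ∈ E) (e : f (κ y) = κ y') (h0 : κ y' ≠ 0) : ∃ m, Ac t E κ m f ∧ m * y * m⁻¹ = y' := by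
  obtain ⟨s, hs⟩ := h.toEK.sgn_ex hy' (h.nrm g hg.1 y hy) ((hg.2 y hy).trans e)
  obtain ⟨Z, hZ, hb⟩ := bf_nd _ (h.lt y' hy') h0 s
  obtain ⟨z, hz, rfl⟩ := h.surj Z hZ
  refine ⟨z * g, h.acm (f := id) (h.toEK.ac_mem hz) hg, ?_⟩
  rw [← hs z hz hb]; group

theorem rk_to4 {X : ℕ} (hX : X < 256) (hr : rk X = true) : ∃ a b, SL a ∧ SL b ∧ act a b 0 X = 4 := by
  have := all256 (P := fun X => !rk X || anyLt (fun b => force b fun b => Nat.beq (det b) 1 &&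
    force (mm X b) fun Y => Nat.beq (Nat.land Y 51) 0 && anyLt (fun a => force a fun a =>
      Nat.beq (det a) 1 && Nat.beq (mm a Y) 4) 256) 256) (by decide +kernel) hX
  simp only [hr, Bool.not_true, Bool.false_or, anyLt_iff, force_eq, Bool.and_eq_true,
    Nat.beq_eq] at this
  obtain ⟨b, hb, h1, -, a, ha, h2, h3⟩ := this
  exact ⟨a, b, ⟨ha, h2⟩, ⟨hb, h1⟩, h3⟩

theorem Kt.to4 (h : Kt n t E κ) {y v : G} (hy : y ∈ E) (hr : rk (κ y) = true) (hv : v ∈ E)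
    (e : κ v = 4) : ∃ m, m * t = t * m ∧ m * y * m⁻¹ = v := by
  obtain ⟨a, b, ha, hb, hab⟩ := rk_to4 (h.lt y hy) hr
  obtain ⟨g, hg⟩ := h.ex ha hb (e := 0) (by norm_num)
  obtain ⟨m, hm, e'⟩ := h.adj hg hy hv (hab.trans e.symm) (by rw [e]; norm_num)
  exact ⟨m, hm.1, e'⟩

theorem comm_inv {g : G} (hg : g * t = t * g) : g⁻¹ * t = t * g⁻¹ :=
  (show Commute g t from hg).inv_left.eq

theorem comm_of_conj {g : G} (hg : g * t * g⁻¹ = t) : g * t = t * g :=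
  mul_inv_eq_iff_eq_mul.1 hg

theorem conj_of_comm {g : G} (hg : g * t = t * g) : g * t * g⁻¹ = t :=
  mul_inv_eq_iff_eq_mul.2 hg

theorem Kt.symm (h : Kt n t E κ) {g : G} (h1 : g * t * g⁻¹ ∈ E) : g⁻¹ * t * g ∈ E := by
  rcases (h.cls _ h1).1 (isConj_iff.2 ⟨g, rfl⟩) with e | e
  · rw [comm_inv (comm_of_conj e), inv_mul_cancel_right]; exact h.tE
  obtain ⟨g0, a0, b0, c0⟩ := h.sym
  have e0 := ((h.cls _ a0).1 (isConj_iff.2 ⟨g0, rfl⟩)).resolve_left b0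
  obtain ⟨v, hv, hv4⟩ := h.surj 4 (by norm_num)
  obtain ⟨m, hm, e1⟩ := h.to4 h1 e hv hv4
  obtain ⟨m0, hm0, e2⟩ := h.to4 a0 e0 hv hv4
  have hc : (g0⁻¹ * m0⁻¹ * m * g) * t = t * (g0⁻¹ * m0⁻¹ * m * g) := comm_of_conj (by
    rw [show g0⁻¹ * m0⁻¹ * m * g * t * (g0⁻¹ * m0⁻¹ * m * g)⁻¹ =
      g0⁻¹ * m0⁻¹ * (m * (g * t * g⁻¹) * m⁻¹) * m0 * g0 by group, e1, ← e2]; group)
  have := h.nrm _ (comm_inv hc) _ c0
  rwa [show (g0⁻¹ * m0⁻¹ * m * g)⁻¹ * (g0⁻¹ * t * g0) * (g0⁻¹ * m0⁻¹ * m * g)⁻¹⁻¹ =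
    g⁻¹ * (m⁻¹ * (m0 * t * m0⁻¹) * m) * g by group, conj_of_comm hm0,
    comm_inv hm, inv_mul_cancel_right] at this

/-- twelve triples `(a, b, 1)` fixing the code `4` -/
def L12 : List (ℕ × ℕ) := [(20,20), (20,84), (20,148), (20,212), (44,56), (44,120), (44,184),
  (44,248), (56,44), (56,108), (56,172), (56,236)]

theorem L12_spec : ∀ p ∈ L12, SL p.1 ∧ SL p.2 ∧ act p.1 p.2 1 4 = 4 := by
  unfold SL; decide +kernel

theorem L12_tr : ∀ X < 256, U0 X = true → X ∈ [0, 4, 8, 12] ∨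
    (∃ p ∈ L12, act p.1 p.2 1 X = 65) ∧ ∃ p ∈ L12, act p.1 p.2 1 65 = X := by
  decide +kernel

theorem U1 : ∀ X < 256, q X = false → bf X 4 = false → bf X (act 44 56 1 X) = false →
    bf X (act 69 73 0 X) = false → U0 X = true := by
  decide +kernel

theorem U3 {a b e : ℕ} (ha : SL a) (hb : SL b) (he : e < 4)
    (H : ∀ X ∈ [1, 2, 4, 8, 16, 64, 128], act a b e X ^^^ X ∈ [0, 4, 8, 12]) :
    ∀ X < 256, act a b e X = X := by
  have := allT_spec (n := 4) (P := fun a b e => !([1, 2, 4, 8, 16, 64, 128].all fun X =>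
    Nat.beq (Nat.land (Nat.xor (act a b e X) X) 243) 0) ||
      (Nat.beq a 65 && Nat.beq b 65 && Nat.beq e 0)) (by decide +kernel) ha hb he
  rw [Bool.or_eq_true, Bool.not_eq_true', Bool.eq_false_iff] at this
  rcases this with h1 | h1
  · refine absurd (List.all_eq_true.2 fun X hX => ?_) h1
    have h2 := H X hX
    change Nat.beq (Nat.land (act a b e X ^^^ X) 243) 0 = true
    generalize act a b e X ^^^ X = Y at h2
    revert Y; decide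
  · simp only [Bool.and_eq_true, Nat.beq_eq] at h1
    obtain ⟨⟨rfl, rfl⟩, rfl⟩ := h1
    decide +kernel

theorem U4 : ∀ X < 256, ∃ Y < 256, ∃ Z < 256, bf Y X = false ∧ bf Z X = false ∧ bf Y Z = true := by
  intro X hX
  have := all256 (P := fun X => anyLt (fun Y => force Y fun Y => !bf Y X &&
    anyLt (fun Z => force Z fun Z => !bf Z X && bf Y Z) 256) 256) (by decide +kernel) hX
  simp only [anyLt_iff, force_eq, Bool.and_eq_true, Bool.not_eq_true'] at this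
  obtain ⟨Y, hY, h1, Z, hZ, h2, h3⟩ := this
  exact ⟨Y, hY, Z, hZ, h1, h2, h3⟩

theorem Kt.ne_t (h : Kt n t E κ) {y : G} (e : κ y ≠ 0) : y ≠ t := fun e' => e (e' ▸ h.toEK.κ_t)

/-- `E ∩ E_d` has exponent two -/
theorem Kt.sq_int (h : Kt n t E κ) {g y : G} (h2 : g * t * g⁻¹ ≠ t) (hy : y ∈ E)
    (hy' : g⁻¹ * y * g ∈ E) : y * y = 1 := by
  have a1 := h.sq y hy
  have a2 := h.sq _ hy'
  rw [show g⁻¹ * y * g * (g⁻¹ * y * g) = g⁻¹ * (y * y) * g by group] at a2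
  cases e1 : q (κ y)
  · rwa [e1] at a1
  cases e2 : q (κ (g⁻¹ * y * g))
  · rw [e2] at a2
    have : y * y = g * (g⁻¹ * (y * y) * g) * g⁻¹ := by group
    rw [this, a2]; simp
  · rw [e1, cond_true] at a1; rw [e2, a1, cond_true] at a2
    exact absurd (by nth_rw 1 [← a2]; group) h2

theorem Kt.comm_int (h : Kt n t E κ) {g y z : G} (h2 : g * t * g⁻¹ ≠ t) (hy : y ∈ E)
    (hy' : g⁻¹ * y * g ∈ E) (hz : z ∈ E) (hz' : g⁻¹ * z * g ∈ E) : y * z = z * y := by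
  have a1 := h.sq_int h2 hy hy'
  have a2 := h.sq_int h2 hz hz'
  have a3 := h.sq_int h2 (E.mul_mem hy hz) (by
    rw [show g⁻¹ * (y * z) * g = g⁻¹ * y * g * (g⁻¹ * z * g) by group]; exact E.mul_mem hy' hz')
  calc y * z = y * z * (y * z) * (z * y) * ((y * y)⁻¹ * (y * (z * z)⁻¹ * y⁻¹)) := by
        rw [a1, a2]
        calc y * z = y * z * (y * (z * z) * y) := by rw [a2, mul_one, a1, mul_one]
          _ = _ := by group
    _ = z * y := by rw [a3, a1, a2]; group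

theorem Kt.memU4 (h : Kt n t E κ) (hn : n ≤ 4) {g : G} (h1 : g * t * g⁻¹ ∈ E)
    (h2 : κ (g * t * g⁻¹) = 4) {y : G} (hy : y ∈ E) :
    g⁻¹ * y * g ∈ E ↔ U0 (κ y) = true := by
  have hd : g * t * g⁻¹ ≠ t := h.ne_t (by rw [h2]; norm_num)
  have ht := h.symm h1
  let P : ℕ → Prop := fun X => ∃ y ∈ E, g⁻¹ * y * g ∈ E ∧ κ y = X
  have cm : ∀ y z : G, g⁻¹ * (y * z) * g = g⁻¹ * y * g * (g⁻¹ * z * g) := fun y z => by group
  have P0 : ∀ y ∈ E, P (κ y) → g⁻¹ * y * g ∈ E := by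
    rintro y hy ⟨z, hz, hz', e⟩
    rcases h.toEK.eq_or hy hz e.symm with rfl | rfl
    · exact hz'
    · rw [cm]; exact E.mul_mem hz' ht
  have Px : ∀ X Y, P X → P Y → P (X ^^^ Y) ∧ bf X Y = false := by
    rintro _ _ ⟨y, hy, hy', rfl⟩ ⟨z, hz, hz', rfl⟩
    exact ⟨⟨y * z, E.mul_mem hy hz, by rw [cm]; exact E.mul_mem hy' hz', h.mul y hy z hz⟩,
      (h.toEK.comm_iff hy hz).1 (h.comm_int hd hy hy' hz hz')⟩
  have P4 : P 4 := ⟨_, h1, by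
    rw [show g⁻¹ * (g * t * g⁻¹) * g = t by group]; exact h.tE, h2⟩
  have Pa : ∀ a b e, SL a → SL b → e < 2 → act a b e 4 = 4 → ∀ X, P X → P (act a b e X) := by
    rintro a b e ha hb he h4 _ ⟨y, hy, hy', rfl⟩
    obtain ⟨m0, hm0⟩ := h.ex ha hb he
    obtain ⟨m, hm, e1⟩ := h.adj hm0 h1 h1 (by rw [h2, h4]) (by rw [h2]; norm_num)
    refine ⟨m * y * m⁻¹, h.nrm m hm.1 y hy, ?_, hm.2 y hy⟩
    have hc : (g⁻¹ * m * g) * t = t * (g⁻¹ * m * g) := comm_of_conj (by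
      rw [show g⁻¹ * m * g * t * (g⁻¹ * m * g)⁻¹ = g⁻¹ * (m * (g * t * g⁻¹) * m⁻¹) * g by group, e1]
      group)
    have := h.nrm _ hc _ hy'
    rwa [show g⁻¹ * m * g * (g⁻¹ * y * g) * (g⁻¹ * m * g)⁻¹ = g⁻¹ * (m * y * m⁻¹) * g by group] at this
  have PU : ∀ X, P X → X < 256 ∧ U0 X = true := by
    rintro X hX
    have hX' := hX
    obtain ⟨y, hy, hy', rfl⟩ := hX'
    exact ⟨h.lt y hy, U1 _ (h.lt y hy) ((h.toEK.sq_one hy).1 (h.sq_int hd hy hy')) (Px _ _ hX P4).2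
      (Px _ _ hX (Pa 44 56 1 (by unfold SL; decide +kernel) (by unfold SL; decide +kernel)
        (by norm_num) (by decide +kernel) _ hX)).2
      (Px _ _ hX (Pa 69 73 0 (by unfold SL; decide +kernel) (by unfold SL; decide +kernel)
        (by norm_num) (by decide +kernel) _ hX)).2⟩
  have P3 : ∃ X, P X ∧ X ∉ [0, 4, 8, 12] := by
    by_contra hc
    push Not at hc
    have key : ∀ y0 ∈ E, y0 * (g⁻¹ * t * g) = (g⁻¹ * t * g) * y0 → g * y0 * g⁻¹ ∈ E := by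
      intro y0 hy0 hc0
      have hyt : (g * y0 * g⁻¹) * t = t * (g * y0 * g⁻¹) := by
        calc (g * y0 * g⁻¹) * t = g * (y0 * (g⁻¹ * t * g)) * g⁻¹ := by group
          _ = _ := by rw [hc0]; group
      obtain ⟨a, b, e, ha, hb, he, hac⟩ := h.ac _ hyt
      refine h.ker _ (hac.congr h.toEK (U3 ha hb (he.trans_le hn) fun X hX => hc _ ?_))
      have hX' : X < 256 ∧ bf X 4 = false := by revert X; decide +kernel
      obtain ⟨x, hx, rfl⟩ := h.surj X hX'.1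
      have hxd := (h.toEK.comm_iff hx h1).2 (by rw [h2]; exact hX'.2)
      have hcx : (g⁻¹ * x * g) * t = t * (g⁻¹ * x * g) := by
        calc (g⁻¹ * x * g) * t = g⁻¹ * (x * (g * t * g⁻¹)) * g := by group
          _ = _ := by rw [hxd]; group
      refine ⟨g * y0 * g⁻¹ * x * (g * y0 * g⁻¹)⁻¹ * x⁻¹,
        E.mul_mem (h.nrm _ hyt x hx) (E.inv_mem hx), ?_, ?_⟩
      · rw [show g⁻¹ * (g * y0 * g⁻¹ * x * (g * y0 * g⁻¹)⁻¹ * x⁻¹) * g =
          y0 * (g⁻¹ * x * g * y0⁻¹ * (g⁻¹ * x * g)⁻¹) by group]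
        exact E.mul_mem hy0 (h.nrm _ hcx _ (E.inv_mem hy0))
      · rw [h.mul _ (h.nrm _ hyt x hx) _ (E.inv_mem hx), hac.2 x hx, h.toEK.κ_inv hx]
    obtain ⟨Y, hY, Z, hZ, b1, b2, b3⟩ := U4 _ (h.lt _ ht)
    obtain ⟨y0, hy0, rfl⟩ := h.surj Y hY
    obtain ⟨z0, hz0, rfl⟩ := h.surj Z hZ
    have c1 : ∀ w : G, g⁻¹ * (g * w * g⁻¹) * g = w := fun w => by group
    have := h.comm_int hd (key y0 hy0 ((h.toEK.comm_iff hy0 ht).2 b1)) (by rw [c1]; exact hy0)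
      (key z0 hz0 ((h.toEK.comm_iff hz0 ht).2 b2)) (by rw [c1]; exact hz0)
    rw [conj_mul, conj_mul, mul_left_inj, mul_right_inj, h.toEK.comm_iff hy0 hz0, b3] at this
    exact absurd this (by decide)
  have PL : ∀ p ∈ L12, ∀ X, P X → P (act p.1 p.2 1 X) := fun p hp =>
    Pa _ _ _ (L12_spec p hp).1 (L12_spec p hp).2.1 (by norm_num) (L12_spec p hp).2.2
  obtain ⟨X0, hX0, hX1⟩ := P3
  obtain ⟨⟨p, hp, e65⟩, -⟩ := (L12_tr _ (PU _ hX0).1 (PU _ hX0).2).resolve_left hX1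
  have P65 : P 65 := e65 ▸ PL p hp _ hX0
  have PA : ∀ X < 256, U0 X = true → X ∉ [0, 4, 8, 12] → P X := fun X hX hU hX' => by
    obtain ⟨-, p, hp, e⟩ := (L12_tr _ hX hU).resolve_left hX'
    exact e ▸ PL p hp _ P65
  refine ⟨fun hy' => (PU _ ⟨y, hy, hy', rfl⟩).2, fun hU => P0 y hy ?_⟩
  by_cases hX' : κ y ∈ [0, 4, 8, 12]
  · have P8 : P 8 := (Px _ _ P65 (PA 73 (by norm_num) (by decide +kernel) (by decide))).1
    simp only [List.mem_cons, List.not_mem_nil, or_false] at hX'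
    rcases hX' with e | e | e | e <;> rw [e]
    · exact (Px _ _ P4 P4).1
    · exact P4
    · exact P8
    · exact (Px _ _ P4 P8).1
  · exact PA _ (h.lt y hy) hU hX'

theorem Kt.memU (h : Kt n t E κ) (hn : n ≤ 4) {g : G} (h1 : g * t * g⁻¹ ∈ E)
    (h2 : κ (g * t * g⁻¹) ∈ [4, 8, 12]) {y : G} (hy : y ∈ E) :
    g⁻¹ * y * g ∈ E ↔ U0 (κ y) = true := by
  have k : ∀ X ∈ [4, 8, 12], ∃ p ∈ [(65, 65), (194, 131), (131, 194)], (p.1 < 256 ∧ det p.1 = 1) ∧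
      (p.2 < 256 ∧ det p.2 = 1) ∧ act p.1 p.2 0 X = 4 ∧ ∀ Y < 256, U0 (act p.1 p.2 0 Y) = U0 Y := by
    decide +kernel
  obtain ⟨p, -, ha, hb, e4, hU⟩ := k _ h2
  obtain ⟨m, hm⟩ := h.ex (e := 0) ha hb (by norm_num)
  have e1 : m * g * t * (m * g)⁻¹ = m * (g * t * g⁻¹) * m⁻¹ := by group
  have := h.memU4 hn (g := m * g) (e1 ▸ h.nrm m hm.1 _ h1) (by rw [e1, hm.2 _ h1, e4])
    (h.nrm m hm.1 y hy)
  rwa [hm.2 y hy, hU _ (h.lt y hy),
    show (m * g)⁻¹ * (m * y * m⁻¹) * (m * g) = g⁻¹ * y * g by group] at this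

/-- the frame -/
structure Fr (n : ℕ) (t : G) (E : Subgroup G) (κ : G → ℕ) (u i x x0 v1 v2 a b : G) : Prop
    extends Kt n t E κ where
  uE : u ∈ E
  iE : i ∈ E
  xE : x ∈ E
  x0E : x0 ∈ E
  v1E : v1 ∈ E
  v2E : v2 ∈ E
  κu : κ u = 65
  κi : κ i = 130
  κx : κ x = 194
  κx0 : κ x0 = 48
  κ1 : κ v1 = 4
  κ2 : κ v2 = 8
  au : a * u = u * a
  a0 : a * t * a⁻¹ = v1
  a1 : a * v1 * a⁻¹ = v2
  a2 : a * v2 * a⁻¹ = t * v1
  bu : b * u = u * b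
  b0 : b * t * b⁻¹ = t
  b1 : b * v1 * b⁻¹ = v2
  b2 : b * v2 * b⁻¹ = v1 * v2
  aA : ∀ y ∈ E, U0 (κ y) = true → a * y * a⁻¹ ∈ E ∧ U0 (κ (a * y * a⁻¹)) = true
  aA' : ∀ y ∈ E, U0 (κ y) = true → a⁻¹ * y * a ∈ E ∧ U0 (κ (a⁻¹ * y * a)) = true

theorem Kt.frA (h : Kt n t E κ) {u v1 v2 w1 w2 : G} (hu : u ∈ E) (h1 : v1 ∈ E) (h2 : v2 ∈ E)
    (κu : κ u = 65) (κ1 : κ v1 = 4) (κ2 : κ v2 = 8) (hw1 : w1 ∈ E) (hw2 : w2 ∈ E)
    (a1 : κ w1 ∈ [4, 8, 12]) (a2 : κ w2 ∈ [4, 8, 12]) (ne : κ w1 ≠ κ w2) :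
    ∃ k, k * t = t * k ∧ k * u = u * k ∧ k * v1 * k⁻¹ = w1 ∧ k * v2 * k⁻¹ = w2 := by
  have k1 : ∀ X ∈ [4, 8, 12], ∀ Y ∈ [4, 8, 12], X ≠ Y →
      (∃ p ∈ [(65, 65, 0), (20, 20, 1), (44, 44, 1), (131, 194, 0), (194, 131, 0), (56, 56, 1)],
        (p.1 < 256 ∧ det p.1 = 1) ∧ (p.2.1 < 256 ∧ det p.2.1 = 1) ∧ p.2.2 < 2 ∧
        act p.1 p.2.1 p.2.2 65 = 65 ∧ act p.1 p.2.1 p.2.2 4 = X ∧ act p.1 p.2.1 p.2.2 8 = Y) ∧
      ∀ s0 s1 s2 : Bool, ∃ Z ∈ [0, 16, 32, 48, 2, 18, 34, 50], Z < 256 ∧ bf Z 65 = s0 ∧ bf Z X = s1 ∧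
        bf Z Y = s2 := by
    decide +kernel
  obtain ⟨⟨p, -, ha, hb, he, e0, e1, e2⟩, hs⟩ := k1 _ a1 _ a2 ne
  obtain ⟨m, hm⟩ := h.ex ha hb he
  obtain ⟨s0, hs0⟩ := h.toEK.sgn_ex hu (h.nrm m hm.1 u hu) (by rw [hm.2 u hu, κu, e0])
  obtain ⟨s1, hs1⟩ := h.toEK.sgn_ex hw1 (h.nrm m hm.1 v1 h1) (by rw [hm.2 v1 h1, κ1, e1])
  obtain ⟨s2, hs2⟩ := h.toEK.sgn_ex hw2 (h.nrm m hm.1 v2 h2) (by rw [hm.2 v2 h2, κ2, e2])
  obtain ⟨Z, -, hZ, b0, b1, b2⟩ := hs s0 s1 s2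
  obtain ⟨z, hz, rfl⟩ := h.surj Z hZ
  have c : ∀ y, z * m * y * (z * m)⁻¹ = z * (m * y * m⁻¹) * z⁻¹ := fun y => by group
  exact ⟨z * m, (h.acm (h.toEK.ac_mem hz) hm).1, comm_of_conj (by rw [c, hs0 z hz (κu ▸ b0)]),
    by rw [c, hs1 z hz b1], by rw [c, hs2 z hz b2]⟩

theorem bf_sep : ∀ X < 256, ∀ Y < 256, X ≠ 0 → X ≠ Y → ∃ Z < 256, bf Z X = true ∧ bf Z Y = false := by
  intro X hX Y hY h0 h1
  have := all2 (P := fun X Y => Nat.beq X 0 || Nat.beq X Y ||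
    anyLt (fun Z => force Z fun Z => bf Z X && !bf Z Y) 256) (by decide +kernel) hX hY
  simpa only [Bool.or_eq_true, Nat.beq_eq, h0, h1, false_or, anyLt_iff, force_eq,
    Bool.and_eq_true, Bool.not_eq_true'] using this

theorem Kt.exists_fr (h : Kt n t E κ) (hn : n ≤ 4) :
    ∃ u i x x0 v1 v2 a b, Fr n t E κ u i x x0 v1 v2 a b := by
  have k := h.toEK
  obtain ⟨u, hu, κu⟩ := h.surj 65 (by norm_num)
  obtain ⟨i, hi, κi⟩ := h.surj 130 (by norm_num)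
  obtain ⟨x, hx, κx⟩ := h.surj 194 (by norm_num)
  obtain ⟨x0, hx0, κx0⟩ := h.surj 48 (by norm_num)
  obtain ⟨v1, h1, κ1⟩ := h.surj 4 (by norm_num)
  obtain ⟨v2, h2, κ2⟩ := h.surj 8 (by norm_num)
  have κ12 : κ (v1 * v2) = 12 := by rw [h.mul _ h1 _ h2, κ1, κ2]; rfl
  obtain ⟨b, bt, bu, b1, b2⟩ := h.frA hu h1 h2 κu κ1 κ2 h2 (E.mul_mem h1 h2) (by rw [κ2]; decide)
    (by rw [κ12]; decide) (by rw [κ2, κ12]; decide)
  obtain ⟨g, hg⟩ := isConj_iff.1 ((h.cls v1 h1).2 (.inr (by rw [κ1]; decide +kernel)))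
  have mU : ∀ y ∈ E, U0 (κ y) = true → g⁻¹ * y * g ∈ E := fun y hy =>
    (h.memU hn (hg ▸ h1) (by rw [hg, κ1]; decide) hy).2
  have mt := h.symm (hg ▸ h1)
  have mu := mU u hu (by rw [κu]; decide +kernel)
  have m2 := mU v2 h2 (by rw [κ2]; decide +kernel)
  have c1 : ∀ w : G, g * (g⁻¹ * w * g) * g⁻¹ = w := fun w => by group
  obtain ⟨Z, hZ, b3, b4⟩ := bf_sep _ (h.lt _ mt) _ (h.lt _ mu) (fun e => by
    rcases (h.zero _ mt).1 e with e | e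
    · exact h.t1 (by rw [← c1 t, e]; group)
    · exact h.ne_t (y := v1) (by rw [κ1]; norm_num) (by rw [← hg]; nth_rw 1 [← e]; group)) (fun e => by
    rcases k.eq_or mt mu e with e | e
    · exact h.ne_t (y := u) (by rw [κu]; norm_num) (by rw [← c1 u, ← e, c1])
    · refine h.ne_t (y := u * v1) (by rw [h.mul _ hu _ h1, κu, κ1]; decide) ?_
      rw [← c1 t, e, ← hg]; group)
  obtain ⟨e0, he0, rfl⟩ := h.surj Z hZ
  have cc : ∀ y, g * e0 * g⁻¹ * y * (g * e0 * g⁻¹)⁻¹ = g * (e0 * (g⁻¹ * y * g) * e0⁻¹) * g⁻¹ :=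
    fun y => by group
  have et : g * e0 * g⁻¹ * t * (g * e0 * g⁻¹)⁻¹ = t * v1 := by
    rw [cc, k.conj_eq he0 mt, b3, cond_true, ← hg]; group
  have eu : g * e0 * g⁻¹ * u * (g * e0 * g⁻¹)⁻¹ = u := by
    rw [cc, k.conj_eq he0 mu, b4, cond_false, c1]
  have e1 : g * e0 * g⁻¹ * v1 * (g * e0 * g⁻¹)⁻¹ = v1 := by
    rw [cc, ← hg, show g⁻¹ * (g * t * g⁻¹) * g = t by group, conj_of_comm (h.ct e0 he0)]
  have e2 : g * e0 * g⁻¹ * v2 * (g * e0 * g⁻¹)⁻¹ = v2 ∨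
      g * e0 * g⁻¹ * v2 * (g * e0 * g⁻¹)⁻¹ = v2 * v1 := by
    rw [cc, k.conj_eq he0 m2]
    cases bf (κ e0) (κ (g⁻¹ * v2 * g))
    · exact .inl (c1 _)
    · right; rw [cond_true, ← hg]; group
  generalize g * e0 * g⁻¹ = e at et eu e1 e2
  have xt := conj_of_comm (h.ct x0 hx0)
  have xu : x0 * u * x0⁻¹ = u := by
    rw [k.conj_eq hx0 hu, κx0, κu, show bf 48 65 = false by decide +kernel, cond_false]
  have x1 : x0 * v1 * x0⁻¹ = v1 * t := by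
    rw [k.conj_eq hx0 h1, κx0, κ1, show bf 48 4 = true by decide +kernel, cond_true]
  have x2 : x0 * v2 * x0⁻¹ = v2 := by
    rw [k.conj_eq hx0 h2, κx0, κ2, show bf 48 8 = false by decide +kernel, cond_false]
  have c2 : ∀ y, x0 * e * y * (x0 * e)⁻¹ = x0 * (e * y * e⁻¹) * x0⁻¹ := fun y => by group
  have t1 : t * v1 = v1 * t := (h.ct v1 h1).symm
  have s1 : v1 * v1 = 1 := (k.sq_one h1).2 (by rw [κ1]; decide +kernel)
  have s2 : v2 * v2 = 1 := (k.sq_one h2).2 (by rw [κ2]; decide +kernel)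
  have ft : x0 * e * t * (x0 * e)⁻¹ = v1 := by
    rw [c2, et, ← conj_mul, xt, x1, ← mul_assoc, t1, mul_assoc, h.tt, mul_one]
  have fu : x0 * e * u * (x0 * e)⁻¹ = u := by rw [c2, eu, xu]
  have f1 : x0 * e * v1 * (x0 * e)⁻¹ = t * v1 := by rw [c2, e1, x1, t1]
  have f2 : ∃ w ∈ E, κ w ∈ [8, 12] ∧ x0 * e * w * (x0 * e)⁻¹ = v2 := by
    rcases e2 with e2 | e2
    · exact ⟨v2, h2, by rw [κ2]; decide, by rw [c2, e2, x2]⟩
    · refine ⟨v2 * v1, E.mul_mem h2 h1, by rw [h.mul _ h2 _ h1, κ1, κ2]; decide, ?_⟩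
      rw [← conj_mul, f1, c2, e2, ← conj_mul, x1, x2, mul_assoc, mul_assoc v1, ← mul_assoc t, h.tt,
        one_mul, s1, mul_one]
  generalize x0 * e = f at ft fu f1 f2
  obtain ⟨w, hw, κw, f2⟩ := f2
  obtain ⟨m, mt', mu', m1, m2'⟩ := h.frA hu h1 h2 κu κ1 κ2 hw h1
    (by revert κw; generalize κ w = X; revert X; decide) (by rw [κ1]; decide)
    (by rw [κ1]; revert κw; generalize κ w = X; revert X; decide)
  have c3 : ∀ y, f * m * y * (f * m)⁻¹ = f * (m * y * m⁻¹) * f⁻¹ := fun y => by group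
  have a0 : f * m * t * (f * m)⁻¹ = v1 := by rw [c3, conj_of_comm mt', ft]
  have a1 : f * m * v1 * (f * m)⁻¹ = v2 := by rw [c3, m1, f2]
  have a2 : f * m * v2 * (f * m)⁻¹ = t * v1 := by rw [c3, m2', f1]
  have au : f * m * u = u * (f * m) := comm_of_conj (by rw [c3, conj_of_comm mu', fu])
  generalize f * m = a at a0 a1 a2 au
  have a3 : a⁻¹ * t * a⁻¹⁻¹ = t * v2 := by
    have : a * (t * v2) * a⁻¹ = t := by
      rw [← conj_mul, a0, a2, t1, ← mul_assoc, s1, one_mul]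
    nth_rw 1 [← this]; group
  have A1 : ∀ y ∈ E, a⁻¹ * y * a ∈ E ↔ U0 (κ y) = true := fun y hy =>
    h.memU hn (a0 ▸ h1) (by rw [a0, κ1]; decide) hy
  have A2 : ∀ y ∈ E, a * y * a⁻¹ ∈ E ↔ U0 (κ y) = true := fun y hy => by
    have := h.memU hn (g := a⁻¹) (a3 ▸ E.mul_mem h.tE h2)
      (by rw [a3, h.mul _ h.tE _ h2, k.κ_t, κ2]; decide) hy
    rwa [inv_inv] at this
  exact ⟨u, i, x, x0, v1, v2, a, b,
    { h with
      uE := hu, iE := hi, xE := hx, x0E := hx0, v1E := h1, v2E := h2, κu := κu, κi := κi, κx := κx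
      κx0 := κx0, κ1 := κ1, κ2 := κ2, au := au, a0 := a0, a1 := a1, a2 := a2, bu := bu
      b0 := conj_of_comm bt, b1 := b1, b2 := b2
      aA := fun y hy hU => ⟨(A2 y hy).2 hU, (A1 _ ((A2 y hy).2 hU)).1 (by
        rwa [show a⁻¹ * (a * y * a⁻¹) * a = y by group])⟩
      aA' := fun y hy hU => ⟨(A1 y hy).2 hU, (A2 _ ((A1 y hy).2 hU)).1 (by
        rwa [show a * (a⁻¹ * y * a) * a⁻¹ = y by group])⟩ }⟩

end CL.HK
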