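import Mathlib
import Cfsg.Agent.SPOR.HK.Fr

/-!
The homocyclic group `W = ⟨u, i, j, k⟩`, `j = a i a⁻¹`, `k = a j a⁻¹` (`i² = t`, `j² = v1`, `k² = v2`).
`W* = C(u, t, v1, v2)` is normalised by `a` (`a` centralises `u` and permutes generators of `V = ⟨t, v1, v2⟩`:
`a⁻¹ t a = t v2`, `a⁻¹ v1 a = t`, `a⁻¹ v2 a = v1`).

`cV`: `ac`; a triple with `e < 2` fixing `65, 4, 8` is `(c, c, 0)` with `c ∈ [65,69,73,77]` (`allT`).
These fix `130`, so every `w ∈ W*` has `w i w⁻¹ ∈ {i, i t}` (`sgn`; `i t = i⁻¹`).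
`ij`: `i ∈ W*` (`comm_iff`), so `j ∈ W*`, `[j, i] ∈ ⟨t⟩`; `a⁻¹ i a ∈ W*` gives `[a⁻¹ i a, i] ∈ ⟨t⟩`, so
`[i, j] ∈ ⟨v1⟩`; `⟨t⟩ ∩ ⟨v1⟩ = 1`.  The same with `a²` for `ik`; `jk` is the conjugate of `ij`.
`xj`: `y = a⁻¹ x a ∈ E` has `U0` (`aA'`) and its code is not in `{0,4,8,12,65,69,73,77}` (else
`y ∈ V ⟨u⟩ = {t^α v1^β v2^γ u^δ}` by `eq_or`, which is `a`-invariant, but `κ x = 194`); such codes have
`bf X 130 = true`, so `y` inverts `i`.  Twice for `xk`.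
`W_form`: let `c(w)` be the `c` of `cV`; `c(w) = 65` iff `w ∈ E` (`ker`; `act 65 65 0 = id` on codes), and
`c(w) = c(w')` gives `w' ⁻¹ w ∈ E`.  `j, k, j k ∉ E` (their squares `v1, v2, v1 v2` are not in `⟨t⟩`), and
`j⁻¹ k ∉ E` etc., so `c(1), c(j), c(k), c(j k)` are the four values and `w = w₀ r`, `r ∈ {1, j, k, j k}`, with
`w₀ ∈ E` commuting with `u, v1, v2, i`; then `κ w₀ = p + q e₁₂` (decide: `bf X 65 = bf X 130 = bf X 4 = bf X 8 = false`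
gives `X ∈ span [130, 65, 4, 8]`), so `w₀ = i^α u^ε v1^β v2^γ t^δ` by `eq_or`; `t = i²`, `v1 = j²`, `v2 = k²`.
`lemP`: `w = w₀ r` as above, `ρ w₀ ∈ E` has trace `0`.  If `r ≠ 1`: `κ`-compute `(ρ' r)² = ρ' (r ρ' r⁻¹) r²`;
`X xor act c c 0 X ∉ {4, 8, 12}` for `tr X = 0` (decide), so the square is not `1`.
-/

set_option autoImplicit false

namespace CL.HK

open CL.K

theorem Kt.same {G : Type*} [Group G] {n : ℕ} {t : G} {E : Subgroup G} {κ : G → ℕ}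
    (h : Kt n t E κ) {g g' : G} {f : ℕ → ℕ} (a : Ac t E κ g f) (a' : Ac t E κ g' f) :
    g'⁻¹ * g ∈ E := by
  have ht : g'⁻¹ * g * t = t * (g'⁻¹ * g) :=
    ((show Commute g' t from a'.1).inv_left.mul_left (show Commute g t from a.1)).eq
  refine h.ker _ ⟨ht, fun y hy => ?_⟩
  have hy' := h.nrm _ ht y hy
  have e := a'.2 _ hy'
  rw [show g' * (g'⁻¹ * g * y * (g'⁻¹ * g)⁻¹) * g'⁻¹ = g * y * g⁻¹ by group, a.2 y hy,
    ← a'.2 y hy] at e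
  have e2 : κ (g' * (g'⁻¹ * g * y * (g'⁻¹ * g)⁻¹) * g'⁻¹) = κ (g' * y * g'⁻¹) := by
    rw [a'.2 _ hy', ← e]
  rcases h.toEK.eq_or (h.nrm _ a'.1 _ hy') (h.nrm _ a'.1 _ hy) e2 with e3 | e3
  · rw [mul_left_inj, mul_right_inj] at e3
    rw [e3]; rfl
  · rw [mul_assoc (g' * y), comm_inv a'.1, ← mul_assoc (g' * y), mul_left_inj, mul_assoc g' y,
      mul_right_inj] at e3
    rw [e3, h.toEK.κ_mul_t hy]; rfl

theorem tr_xor {X Y : ℕ} (hX : X < 256) (hY : Y < 256) : tr (X ^^^ Y) = tr X ^^^ tr Y :=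
  Nat.eq_of_beq_eq_true (all2 (P := fun X Y => Nat.beq (tr (Nat.xor X Y)) (Nat.xor (tr X) (tr Y)))
    (by decide +kernel) hX hY)

theorem fix_three {p r e : ℕ} (hp : SL p) (hr : SL r) (he : e < 2) (h0 : act p r e 65 = 65)
    (h1 : act p r e 4 = 4) (h2 : act p r e 8 = 8) : p ∈ [65, 69, 73, 77] ∧ r = p ∧ e = 0 := by
  have := allT_spec (n := 2) (P := fun p r e => !(Nat.beq (act p r e 65) 65 &&
    Nat.beq (act p r e 4) 4 && Nat.beq (act p r e 8) 8) || ((Nat.beq p 65 || Nat.beq p 69 ||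
      Nat.beq p 73 || Nat.beq p 77) && Nat.beq r p && Nat.beq e 0)) (by decide +kernel) hp hr he
  simpa [h0, h1, h2, or_assoc, and_assoc] using this

theorem fix_65 {p r e : ℕ} (hp : SL p) (hr : SL r) (he : e < 2) (h0 : act p r e 65 = 65) :
    bf 130 (act p r e 130) = false ∧ (act p r e 4 = 4 → act p r e 8 = 8 ∨ act p r e 8 = 12) ∧
      ∀ X < 256, tr X = 0 → tr (act p r e X) = 0 := by
  have := allT_spec (n := 2) (P := fun p r e => !Nat.beq (act p r e 65) 65 ||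
    (!bf 130 (act p r e 130) && (!Nat.beq (act p r e 4) 4 || Nat.beq (act p r e 8) 8 ||
      Nat.beq (act p r e 8) 12) && allLt (fun X => force X fun X => !Nat.beq (tr X) 0 ||
        Nat.beq (tr (act p r e X)) 0) 256)) (by decide +kernel) hp hr he
  simp only [h0, Nat.beq_refl, Bool.not_true, Bool.false_or, Bool.and_eq_true, Bool.not_eq_true',
    Bool.or_eq_true, Nat.beq_eq, allLt_iff, force_eq, Bool.eq_false_iff, Ne] at this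
  refine ⟨Bool.eq_false_iff.2 this.1.1, fun h => ?_, fun X hX h => (this.2 X hX).resolve_left (· h)⟩
  rcases this.1.2 with (h' | h') | h'
  · exact absurd h h'
  · exact .inl h'
  · exact .inr h'

namespace Fr

variable {G : Type*} [Group G] {t : G} {E : Subgroup G} {κ : G → ℕ} {u i x x0 v1 v2 a b : G}
  (F : Fr 2 t E κ u i x x0 v1 v2 a b)
include F

theorem ek : EK t E κ := F.toKt.toEK

/-- the group `V = ⟨t, v1, v2⟩` -/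
def V : Subgroup G where
  carrier := {y | y ∈ E ∧ κ y ∈ [0, 4, 8, 12]}
  one_mem' := ⟨E.one_mem, by rw [F.ek.κ_one]; decide⟩
  mul_mem' := fun {y z} hy hz => ⟨E.mul_mem hy.1 hz.1, by
    rw [F.mul y hy.1 z hz.1]
    exact (by decide : ∀ X ∈ [0, 4, 8, 12], ∀ Y ∈ [0, 4, 8, 12], X ^^^ Y ∈ [0, 4, 8, 12])
      _ hy.2 _ hz.2⟩
  inv_mem' := fun {y} hy => ⟨E.inv_mem hy.1, by rw [F.ek.κ_inv hy.1]; exact hy.2⟩

theorem mem_V {y : G} : y ∈ F.V ↔ y ∈ E ∧ κ y ∈ [0, 4, 8, 12] := Iff.rfl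

theorem tV : t ∈ F.V := ⟨F.tE, by rw [F.ek.κ_t]; decide⟩
theorem v1V : v1 ∈ F.V := ⟨F.v1E, by rw [F.κ1]; decide⟩
theorem v2V : v2 ∈ F.V := ⟨F.v2E, by rw [F.κ2]; decide⟩

theorem κ12 : κ (v1 * v2) = 12 := by rw [F.mul _ F.v1E _ F.v2E, F.κ1, F.κ2]; rfl

theorem V_cases {y : G} (hy : y ∈ F.V) :
    y ∈ ({1, t, v1, v1 * t, v2, v2 * t, v1 * v2, v1 * v2 * t} : Set G) := by
  have h2 := hy.2
  simp only [List.mem_cons, List.not_mem_nil, or_false] at h2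
  simp only [Set.mem_insert_iff, Set.mem_singleton_iff]
  rcases h2 with e | e | e | e
  · rcases (F.zero y hy.1).1 e with e | e <;> simp [e]
  · rcases F.ek.eq_or hy.1 F.v1E (e.trans F.κ1.symm) with e | e <;> simp [e]
  · rcases F.ek.eq_or hy.1 F.v2E (e.trans F.κ2.symm) with e | e <;> simp [e]
  · rcases F.ek.eq_or hy.1 (E.mul_mem F.v1E F.v2E) (e.trans F.κ12.symm) with e | e <;> simp [e]

theorem V_le {K : Submonoid G} (h0 : t ∈ K) (h1 : v1 ∈ K) (h2 : v2 ∈ K) {y : G} (hy : y ∈ F.V) :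
    y ∈ K := by
  have := F.V_cases hy
  simp only [Set.mem_insert_iff, Set.mem_singleton_iff] at this
  rcases this with rfl | rfl | rfl | rfl | rfl | rfl | rfl | rfl
  exacts [K.one_mem, h0, h1, K.mul_mem h1 h0, h2, K.mul_mem h2 h0, K.mul_mem h1 h2,
    K.mul_mem (K.mul_mem h1 h2) h0]

/-- `W* = C(u, t, v1, v2)` -/
def Ws (_ : Fr 2 t E κ u i x x0 v1 v2 a b) : Subgroup G := Subgroup.centralizer {u, t, v1, v2}

theorem mem_Ws {w : G} :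
    w ∈ F.Ws ↔ w * u = u * w ∧ w * t = t * w ∧ w * v1 = v1 * w ∧ w * v2 = v2 * w := by
  simp only [Ws, Subgroup.mem_centralizer_iff, Set.mem_insert_iff, Set.mem_singleton_iff,
    forall_eq_or_imp, forall_eq]
  simp only [eq_comm]

theorem Ws_V {w v : G} (hw : w ∈ F.Ws) (hv : v ∈ F.V) : w * v = v * w := by
  obtain ⟨-, h0, h1, h2⟩ := F.mem_Ws.1 hw
  have := F.V_le (K := (Subgroup.centralizer {w}).toSubmonoid)
    (Subgroup.mem_centralizer_singleton_iff.2 h0.symm)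
    (Subgroup.mem_centralizer_singleton_iff.2 h1.symm)
    (Subgroup.mem_centralizer_singleton_iff.2 h2.symm) hv
  exact (Subgroup.mem_centralizer_singleton_iff.1 this).symm

/-- the normaliser of `V` in `C(u)` -/
def NV : Subgroup G := Subgroup.centralizer {u} ⊓ Subgroup.normalizer (F.V : Set G)

theorem nv_of {g : G} (hu : g * u = u * g) (h0 : g * t * g⁻¹ ∈ F.V) (h1 : g * v1 * g⁻¹ ∈ F.V)
    (h2 : g * v2 * g⁻¹ ∈ F.V) : g ∈ F.NV := by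
  have : Finite (F.V : Set G) := Set.Finite.subset (Set.toFinite _) fun y hy => F.V_cases hy
  refine ⟨Subgroup.mem_centralizer_singleton_iff.2 hu, Subgroup.mem_normalizer_fintype fun y hy => ?_⟩
  exact F.V_le (K := (F.V.comap (MulAut.conj g).toMonoidHom).toSubmonoid) h0 h1 h2 hy

theorem nv_u {g : G} (hg : g ∈ F.NV) : g * u = u * g := Subgroup.mem_centralizer_singleton_iff.1 hg.1

theorem nv_V {g y : G} (hg : g ∈ F.NV) : g * y * g⁻¹ ∈ F.V ↔ y ∈ F.V :=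
  (Subgroup.mem_normalizer_iff.1 hg.2 y).symm

theorem aNV : a ∈ F.NV :=
  F.nv_of F.au (F.a0 ▸ F.v1V) (F.a1 ▸ F.v2V) (F.a2 ▸ F.V.mul_mem F.tV F.v1V)

theorem ws_conj {g w : G} (hg : g ∈ F.NV) (hw : w ∈ F.Ws) : g * w * g⁻¹ ∈ F.Ws := by
  have k : ∀ v, w * (g⁻¹ * v * g⁻¹⁻¹) = (g⁻¹ * v * g⁻¹⁻¹) * w →
      g * w * g⁻¹ * v = v * (g * w * g⁻¹) := fun v e => by
    calc g * w * g⁻¹ * v = g * (w * (g⁻¹ * v * g⁻¹⁻¹)) * g⁻¹ := by group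
      _ = _ := by rw [e]; group
  have hg' := F.NV.inv_mem hg
  exact F.mem_Ws.2 ⟨k u (by rw [conj_of_comm (F.nv_u hg')]; exact (F.mem_Ws.1 hw).1),
    k t (F.Ws_V hw ((F.nv_V hg').2 F.tV)), k v1 (F.Ws_V hw ((F.nv_V hg').2 F.v1V)),
    k v2 (F.Ws_V hw ((F.nv_V hg').2 F.v2V))⟩

theorem ws_of {y : G} (hy : y ∈ E) (h0 : bf (κ y) 65 = false) (h1 : bf (κ y) 4 = false)
    (h2 : bf (κ y) 8 = false) : y ∈ F.Ws :=
  F.mem_Ws.2 ⟨(F.ek.comm_iff hy F.uE).2 (F.κu ▸ h0), F.ct y hy,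
    (F.ek.comm_iff hy F.v1E).2 (F.κ1 ▸ h1), (F.ek.comm_iff hy F.v2E).2 (F.κ2 ▸ h2)⟩

theorem iWs : i ∈ F.Ws := F.ws_of F.iE (by rw [F.κi]; decide +kernel) (by rw [F.κi]; decide +kernel)
  (by rw [F.κi]; decide +kernel)

theorem xWs : x ∈ F.Ws := F.ws_of F.xE (by rw [F.κx]; decide +kernel) (by rw [F.κx]; decide +kernel)
  (by rw [F.κx]; decide +kernel)

theorem uWs : u ∈ F.Ws := F.ws_of F.uE (by rw [F.κu]; decide +kernel) (by rw [F.κu]; decide +kernel)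
  (by rw [F.κu]; decide +kernel)

theorem ii : i * i = t := (F.ek.sq_t F.iE).2 (by rw [F.κi]; decide +kernel)
theorem uu : u * u = 1 := (F.ek.sq_one F.uE).2 (by rw [F.κu]; decide +kernel)
theorem xx : x * x = 1 := (F.ek.sq_one F.xE).2 (by rw [F.κx]; decide +kernel)
theorem i_inv : i⁻¹ = i * t := inv_eq_of_mul_eq_one_right (by rw [← mul_assoc, F.ii, F.tt])
theorem jj : a * i * a⁻¹ * (a * i * a⁻¹) = v1 := by rw [conj_mul, F.ii, F.a0]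
theorem kk : a * (a * i * a⁻¹) * a⁻¹ * (a * (a * i * a⁻¹) * a⁻¹) = v2 := by
  rw [conj_mul, F.jj, F.a1]

theorem cV {w : G} (hu : w * u = u * w) (ht : w * t = t * w) (h1 : w * v1 = v1 * w)
    (h2 : w * v2 = v2 * w) : ∃ c ∈ [65, 69, 73, 77], Ac t E κ w (act c c 0) := by
  obtain ⟨p, r, e, hp, hr, he, hac⟩ := F.ac w ht
  have e0 := hac.2 u F.uE
  have e1 := hac.2 v1 F.v1E
  have e2 := hac.2 v2 F.v2E
  rw [conj_of_comm hu, F.κu] at e0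
  rw [conj_of_comm h1, F.κ1] at e1
  rw [conj_of_comm h2, F.κ2] at e2
  obtain ⟨hc, rfl, rfl⟩ := fix_three hp hr he e0.symm e1.symm e2.symm
  exact ⟨_, hc, hac⟩

theorem sgn {w : G} (hu : w * u = u * w) (ht : w * t = t * w) (h1 : w * v1 = v1 * w)
    (h2 : w * v2 = v2 * w) : w * i * w⁻¹ = i ∨ w * i * w⁻¹ = i⁻¹ := by
  obtain ⟨c, hc, hac⟩ := F.cV hu ht h1 h2
  rw [F.i_inv]
  refine F.ek.eq_or (F.nrm w ht i F.iE) F.iE ?_
  rw [hac.2 i F.iE, F.κi]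
  exact (by decide +kernel : ∀ c ∈ [65, 69, 73, 77], act c c 0 130 = 130) c hc

theorem sgn' {w : G} (hw : w ∈ F.Ws) : w * i * w⁻¹ = i ∨ w * i * w⁻¹ = i⁻¹ :=
  have := F.mem_Ws.1 hw
  F.sgn this.1 this.2.1 this.2.2.1 this.2.2.2

theorem nv_i {g : G} (hg : g ∈ F.NV) : i * (g * i * g⁻¹) = (g * i * g⁻¹) * i := by
  by_cases ht : g * t * g⁻¹ = t
  · obtain ⟨p, r, e, hp, hr, he, hac⟩ := F.ac g (comm_of_conj ht)
    have e0 := hac.2 u F.uE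
    rw [conj_of_comm (F.nv_u hg), F.κu] at e0
    refine (F.ek.comm_iff F.iE (F.nrm g hac.1 i F.iE)).2 ?_
    rw [hac.2 i F.iE, F.κi]
    exact (fix_65 hp hr he e0.symm).1
  rcases F.sgn' (F.ws_conj hg F.iWs) with e1 | e1
  · exact (comm_of_conj e1).symm
  rcases F.sgn' (F.ws_conj (F.NV.inv_mem hg) F.iWs) with e2 | e2
  · calc i * (g * i * g⁻¹) = g * (g⁻¹ * i * g⁻¹⁻¹ * i * (g⁻¹ * i * g⁻¹⁻¹)⁻¹) * g⁻¹ * i := by group
      _ = _ := by rw [e2]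
  · exfalso
    apply ht
    have e3 : i * (g * i * g⁻¹) * i⁻¹ = (g * i * g⁻¹)⁻¹ := by
      calc _ = g * (g⁻¹ * i * g⁻¹⁻¹ * i * (g⁻¹ * i * g⁻¹⁻¹)⁻¹) * g⁻¹ := by group
        _ = _ := by rw [e2]; group
    rw [← F.ii, ← conj_mul, F.ii, ← F.ek.t_inv, ← F.ii]
    generalize g * i * g⁻¹ = j at e1 e3
    calc j * j = j * (j⁻¹)⁻¹ := by group
      _ = (j * i * j⁻¹) * i⁻¹ := by nth_rw 1 [← e3]; group
      _ = _ := by rw [e1]; group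

theorem ij : i * (a * i * a⁻¹) = (a * i * a⁻¹) * i := F.nv_i F.aNV

theorem ik : i * (a * (a * i * a⁻¹) * a⁻¹) = (a * (a * i * a⁻¹) * a⁻¹) * i := by
  have := F.nv_i (F.NV.mul_mem F.aNV F.aNV)
  rwa [show a * a * i * (a * a)⁻¹ = a * (a * i * a⁻¹) * a⁻¹ by group] at this

theorem jk : a * i * a⁻¹ * (a * (a * i * a⁻¹) * a⁻¹) = a * (a * i * a⁻¹) * a⁻¹ * (a * i * a⁻¹) := by
  rw [conj_mul, conj_mul, F.ij]

theorem big_inv {y : G} (hy : y ∈ E) (hU : U0 (κ y) = true) (h1 : y ∉ F.V) (h2 : y * u ∉ F.V) :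
    y * i * y⁻¹ = i⁻¹ := by
  have : bf (κ y) 130 = true := by
    refine (by decide +kernel : ∀ X < 256, U0 X = true → X ∉ [0, 4, 8, 12] →
      X ^^^ 65 ∉ [0, 4, 8, 12] → bf X 130 = true) _ (F.lt y hy) hU (fun e => h1 ⟨hy, e⟩)
      fun e => h2 ⟨E.mul_mem hy F.uE, ?_⟩
    rwa [F.mul y hy u F.uE, F.κu]
  rw [F.ek.conj_eq hy F.iE, F.κi, this, cond_true, F.i_inv]

theorem big_a {y : G} (h : y ∈ E ∧ U0 (κ y) = true ∧ y ∉ F.V ∧ y * u ∉ F.V) :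
    a⁻¹ * y * a ∈ E ∧ U0 (κ (a⁻¹ * y * a)) = true ∧ a⁻¹ * y * a ∉ F.V ∧ a⁻¹ * y * a * u ∉ F.V := by
  refine ⟨(F.aA' y h.1 h.2.1).1, (F.aA' y h.1 h.2.1).2, fun e => h.2.2.1 ?_, fun e => h.2.2.2 ?_⟩
  · have := (F.nv_V F.aNV).2 e
    rwa [show a * (a⁻¹ * y * a) * a⁻¹ = y by group] at this
  · have := (F.nv_V F.aNV).2 e
    rwa [show a * (a⁻¹ * y * a * u) * a⁻¹ = y * (a * u * a⁻¹) by group, conj_of_comm F.au] at this

theorem big_x : x ∈ E ∧ U0 (κ x) = true ∧ x ∉ F.V ∧ x * u ∉ F.V :=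
  ⟨F.xE, by rw [F.κx]; decide +kernel, fun e => absurd e.2 (by rw [F.κx]; decide),
    fun e => absurd e.2 (by rw [F.mul x F.xE u F.uE, F.κx, F.κu]; decide)⟩

theorem xi : x * i * x⁻¹ = i⁻¹ := F.big_inv F.big_x.1 F.big_x.2.1 F.big_x.2.2.1 F.big_x.2.2.2

theorem xj : x * (a * i * a⁻¹) * x⁻¹ = (a * i * a⁻¹)⁻¹ := by
  obtain ⟨h1, h2, h3, h4⟩ := F.big_a F.big_x
  calc _ = a * (a⁻¹ * x * a * i * (a⁻¹ * x * a)⁻¹) * a⁻¹ := by group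
    _ = _ := by rw [F.big_inv h1 h2 h3 h4]; group

theorem xk : x * (a * (a * i * a⁻¹) * a⁻¹) * x⁻¹ = (a * (a * i * a⁻¹) * a⁻¹)⁻¹ := by
  obtain ⟨h1, h2, h3, h4⟩ := F.big_a (F.big_a F.big_x)
  calc _ = a * (a * (a⁻¹ * (a⁻¹ * x * a) * a * i * (a⁻¹ * (a⁻¹ * x * a) * a)⁻¹) * a⁻¹) * a⁻¹ := by
        group
    _ = _ := by rw [F.big_inv h1 h2 h3 h4, conj_inv, conj_inv]

/-- `W = C(u, t, v1, v2, i)` -/
def WW : Subgroup G := F.Ws ⊓ Subgroup.centralizer {i}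

theorem mem_WW {w : G} : w ∈ F.WW ↔ w ∈ F.Ws ∧ w * i = i * w :=
  and_congr_right fun _ => Subgroup.mem_centralizer_singleton_iff

theorem iW : i ∈ F.WW := F.mem_WW.2 ⟨F.iWs, rfl⟩

theorem uW : u ∈ F.WW := F.mem_WW.2 ⟨F.uWs, (F.mem_Ws.1 F.iWs).1.symm⟩

theorem nv_iW {g : G} (hg : g ∈ F.NV) : g * i * g⁻¹ ∈ F.WW :=
  F.mem_WW.2 ⟨F.ws_conj hg F.iWs, (F.nv_i hg).symm⟩

theorem jW : a * i * a⁻¹ ∈ F.WW := F.nv_iW F.aNV

theorem kW : a * (a * i * a⁻¹) * a⁻¹ ∈ F.WW := F.mem_WW.2 ⟨F.ws_conj F.aNV (F.mem_WW.1 F.jW).1, F.ik.symm⟩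

theorem nE {y : G} (h : κ (y * y) ≠ 0) : y ∉ E := fun hy =>
  h (by rw [F.mul y hy y hy, Nat.xor_self])

theorem jkjk : a * i * a⁻¹ * (a * (a * i * a⁻¹) * a⁻¹) * (a * i * a⁻¹ * (a * (a * i * a⁻¹) * a⁻¹)) =
    v1 * v2 := by
  rw [(show Commute _ _ from F.jk).symm.mul_mul_mul_comm, F.jj, F.kk]

theorem W_dec {w : G} (hw : w ∈ F.WW) : ∃ w0 ∈ E, w0 ∈ F.WW ∧ ∃ r, (r = 1 ∨ r = a * i * a⁻¹ ∨
    r = a * (a * i * a⁻¹) * a⁻¹ ∨ r = a * i * a⁻¹ * (a * (a * i * a⁻¹) * a⁻¹)) ∧ w = w0 * r := by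
  have cW : ∀ w ∈ F.WW, ∃ c ∈ [65, 69, 73, 77], Ac t E κ w (act c c 0) := fun w hw =>
    have := F.mem_Ws.1 (F.mem_WW.1 hw).1
    F.cV this.1 this.2.1 this.2.2.1 this.2.2.2
  have hjk := F.jk
  have n1 : a * i * a⁻¹ ∉ E := F.nE (by rw [F.jj, F.κ1]; norm_num)
  have n2 : a * (a * i * a⁻¹) * a⁻¹ ∉ E := F.nE (by rw [F.kk, F.κ2]; norm_num)
  have n3 : a * i * a⁻¹ * (a * (a * i * a⁻¹) * a⁻¹) ∉ E := F.nE (by rw [F.jkjk, F.κ12]; norm_num)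
  have n4 : (a * i * a⁻¹)⁻¹ * (a * (a * i * a⁻¹) * a⁻¹) ∉ E := fun e => n3 (by
    have := E.mul_mem F.v1E e
    rwa [← F.jj, mul_assoc (a * i * a⁻¹), mul_inv_cancel_left] at this)
  have hj := F.jW
  have hk := F.kW
  generalize a * (a * i * a⁻¹) * a⁻¹ = k at *
  generalize a * i * a⁻¹ = j at *
  obtain ⟨c, hc, ac⟩ := cW w hw
  obtain ⟨c0, hc0, ac0⟩ := cW 1 F.WW.one_mem
  obtain ⟨c1, hc1, ac1⟩ := cW j hj
  obtain ⟨c2, hc2, ac2⟩ := cW k hk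
  obtain ⟨c3, hc3, ac3⟩ := cW _ (F.WW.mul_mem hj hk)
  have S := @Kt.same _ _ _ _ _ _ F.toKt
  have d1 : c1 ≠ c0 := fun e => n1 (by subst e; simpa using S ac1 ac0)
  have d2 : c2 ≠ c0 := fun e => n2 (by subst e; simpa using S ac2 ac0)
  have d3 : c3 ≠ c0 := fun e => n3 (by subst e; simpa using S ac3 ac0)
  have d4 : c2 ≠ c1 := fun e => n4 (S ac2 (e ▸ ac1))
  have d5 : c3 ≠ c1 := fun e => n2 (by subst e; simpa using S ac3 ac1)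
  have d6 : c3 ≠ c2 := fun e => n1 (by subst e; simpa [hjk] using S ac3 ac2)
  have fin : ∀ r ∈ F.WW, Ac t E κ r (act c c 0) → w * r⁻¹ ∈ E ∧ w * r⁻¹ ∈ F.WW := fun r hr ar =>
    ⟨by simpa [mul_assoc] using F.nrm r ar.1 _ (S ac ar), F.WW.mul_mem hw (F.WW.inv_mem hr)⟩
  have : c = c0 ∨ c = c1 ∨ c = c2 ∨ c = c3 := by
    simp only [List.mem_cons, List.not_mem_nil, or_false] at hc hc0 hc1 hc2 hc3
    omega
  rcases this with rfl | rfl | rfl | rfl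
  · exact ⟨_, (fin _ F.WW.one_mem ac0).1, (fin _ F.WW.one_mem ac0).2, _, .inl rfl, by group⟩
  · exact ⟨_, (fin _ hj ac1).1, (fin _ hj ac1).2, _, .inr (.inl rfl), by group⟩
  · exact ⟨_, (fin _ hk ac2).1, (fin _ hk ac2).2, _, .inr (.inr (.inl rfl)), by group⟩
  · exact ⟨_, (fin _ (F.WW.mul_mem hj hk) ac3).1, (fin _ (F.WW.mul_mem hj hk) ac3).2, _,
      .inr (.inr (.inr rfl)), by group⟩

set_option synthInstance.maxSize 2000 in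
theorem W_code {w : G} (hE : w ∈ E) (hw : w ∈ F.WW) : tr (κ w) = 0 ∧ (κ w ∈ [0, 4, 8, 12] ∨
    κ w ^^^ 65 ∈ [0, 4, 8, 12] ∨ κ w ^^^ 130 ∈ [0, 4, 8, 12] ∨ κ w ^^^ 130 ^^^ 65 ∈ [0, 4, 8, 12]) := by
  obtain ⟨h, hi⟩ := F.mem_WW.1 hw
  obtain ⟨hu, -, h1, h2⟩ := F.mem_Ws.1 h
  rw [F.ek.comm_iff hE F.iE, F.κi] at hi
  rw [F.ek.comm_iff hE F.uE, F.κu] at hu
  rw [F.ek.comm_iff hE F.v1E, F.κ1] at h1
  rw [F.ek.comm_iff hE F.v2E, F.κ2] at h2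
  have k : κ w ∈ [0, 4, 8, 12, 65, 69, 73, 77, 130, 134, 138, 142, 195, 199, 203, 207] :=
    (by decide +kernel : ∀ X < 256, bf X 130 = false → bf X 65 = false → bf X 4 = false →
      bf X 8 = false → X ∈ [0, 4, 8, 12, 65, 69, 73, 77, 130, 134, 138, 142, 195, 199, 203, 207])
      _ (F.lt w hE) hi hu h1 h2
  generalize κ w = X at k
  revert X
  decide +kernel

/-- `W` is generated by `i, j, k, u` as a monoid -/
theorem W_le {K : Submonoid G} (hi : i ∈ K) (hj : a * i * a⁻¹ ∈ K)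
    (hk : a * (a * i * a⁻¹) * a⁻¹ ∈ K) (hu : u ∈ K) {w : G} (hw : w ∈ F.WW) : w ∈ K := by
  have ht : t ∈ K := F.ii ▸ K.mul_mem hi hi
  have hV : ∀ y ∈ F.V, y ∈ K := fun y hy =>
    F.V_le ht (F.jj ▸ K.mul_mem hj hj) (F.kk ▸ K.mul_mem hk hk) hy
  have hi' : i⁻¹ ∈ K := F.i_inv ▸ K.mul_mem hi ht
  have hu' : u⁻¹ ∈ K := by rwa [inv_eq_of_mul_eq_one_right F.uu]
  obtain ⟨w0, hE, hw0, r, hr, rfl⟩ := F.W_dec hw
  refine K.mul_mem ?_ ?_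
  · rcases (F.W_code hE hw0).2 with e | e | e | e
    · exact hV _ ⟨hE, e⟩
    · simpa using K.mul_mem (hV _ ⟨E.mul_mem hE F.uE, by rwa [F.mul _ hE _ F.uE, F.κu]⟩) hu'
    · simpa using K.mul_mem (hV _ ⟨E.mul_mem hE F.iE, by rwa [F.mul _ hE _ F.iE, F.κi]⟩) hi'
    · simpa using K.mul_mem (K.mul_mem (hV _ ⟨E.mul_mem (E.mul_mem hE F.iE) F.uE, by
        rwa [F.mul _ (E.mul_mem hE F.iE) _ F.uE, F.mul _ hE _ F.iE, F.κi, F.κu]⟩) hu') hi'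
  · rcases hr with rfl | rfl | rfl | rfl
    exacts [K.one_mem, hj, hk, K.mul_mem hj hk]

theorem W_form {w : G} (hu : w * u = u * w) (ht : w * t = t * w) (h1 : w * v1 = v1 * w)
    (h2 : w * v2 = v2 * w) (hi : w * i = i * w) : ∃ α β γ ε : ℕ,
      w = i ^ α * (a * i * a⁻¹) ^ β * (a * (a * i * a⁻¹) * a⁻¹) ^ γ * u ^ ε := by
  have c1 : Commute (a * i * a⁻¹) i := F.ij.symm
  have c2 : Commute (a * (a * i * a⁻¹) * a⁻¹) i := F.ik.symm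
  have c3 : Commute (a * (a * i * a⁻¹) * a⁻¹) (a * i * a⁻¹) := F.jk.symm
  have c4 : Commute u i := (F.mem_WW.1 F.uW).2
  have c5 : Commute u (a * i * a⁻¹) := (F.mem_Ws.1 (F.mem_WW.1 F.jW).1).1.symm
  have c6 : Commute u (a * (a * i * a⁻¹) * a⁻¹) := (F.mem_Ws.1 (F.mem_WW.1 F.kW).1).1.symm
  let K : Submonoid G :=
    { carrier := {w | ∃ α β γ ε : ℕ,
        w = i ^ α * (a * i * a⁻¹) ^ β * (a * (a * i * a⁻¹) * a⁻¹) ^ γ * u ^ ε}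
      one_mem' := ⟨0, 0, 0, 0, by simp⟩
      mul_mem' := by
        rintro _ _ ⟨α, β, γ, ε, rfl⟩ ⟨α', β', γ', ε', rfl⟩
        refine ⟨α + α', β + β', γ + γ', ε + ε', ?_⟩
        rw [(((c4.pow_pow ε α').mul_right (c5.pow_pow ε β')).mul_right
            (c6.pow_pow ε γ')).mul_mul_mul_comm,
          ((c2.pow_pow γ α').mul_right (c3.pow_pow γ β')).mul_mul_mul_comm,
          (c1.pow_pow β α').mul_mul_mul_comm, pow_add, pow_add, pow_add, pow_add] }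
  exact F.W_le (K := K) ⟨1, 0, 0, 0, by simp⟩ ⟨0, 1, 0, 0, by simp⟩ ⟨0, 0, 1, 0, by simp⟩
    ⟨0, 0, 0, 1, by simp⟩ (F.mem_WW.2 ⟨F.mem_Ws.2 ⟨hu, ht, h1, h2⟩, hi⟩)

theorem lemP {ρ w : G} (hρ : ρ ∈ E) (h0 : tr (κ ρ) = 0) (hu : w * u = u * w) (ht : w * t = t * w)
    (h1 : w * v1 = v1 * w) (h2 : w * v2 = v2 * w) (hi : w * i = i * w)
    (hs : ρ * w * (ρ * w) = 1) : ρ * w ∈ E ∧ tr (κ (ρ * w)) = 0 := by
  obtain ⟨w0, hE, hw0, r, hr, rfl⟩ := F.W_dec (F.mem_WW.2 ⟨F.mem_Ws.2 ⟨hu, ht, h1, h2⟩, hi⟩)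
  have hρ' := E.mul_mem hρ hE
  have h0' : tr (κ (ρ * w0)) = 0 := by
    rw [F.mul _ hρ _ hE, tr_xor (F.lt _ hρ) (F.lt _ hE), h0, (F.W_code hE hw0).1]; rfl
  rw [← mul_assoc ρ w0 r] at hs ⊢
  generalize ρ * w0 = σ at *
  have key : ∀ r ∈ F.WW, r * r ∈ E → κ (r * r) ∈ [4, 8, 12] → σ * r * (σ * r) ≠ 1 := by
    intro r hr hE2 hκ e
    obtain ⟨h3, h4, h5, h6⟩ := F.mem_Ws.1 (F.mem_WW.1 hr).1
    obtain ⟨c, hc, ac⟩ := F.cV h3 h4 h5 h6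
    have e2 : σ * (r * σ * r⁻¹) = (r * r)⁻¹ := by
      rw [eq_inv_iff_mul_eq_one, ← e]; group
    have e3 := congrArg κ e2
    rw [F.mul _ hρ' _ (F.nrm r h4 _ hρ'), ac.2 _ hρ', F.ek.κ_inv hE2] at e3
    exact (by decide +kernel : ∀ c ∈ [65, 69, 73, 77], ∀ X < 256, tr X = 0 →
      X ^^^ act c c 0 X ∉ [4, 8, 12]) c hc _ (F.lt _ hρ') h0' (e3 ▸ hκ)
  rcases hr with rfl | rfl | rfl | rfl
  · rw [mul_one]; exact ⟨hρ', h0'⟩
  · exact absurd hs (key _ F.jW (F.jj ▸ F.v1E) (by rw [F.jj, F.κ1]; decide))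
  · exact absurd hs (key _ F.kW (F.kk ▸ F.v2E) (by rw [F.kk, F.κ2]; decide))
  · exact absurd hs (key _ (F.WW.mul_mem F.jW F.kW) (F.jkjk ▸ E.mul_mem F.v1E F.v2E)
      (by rw [F.jkjk, F.κ12]; decide))

end Fr

end CL.HK
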