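import Mathlib
import Cfsg.Agent.SPOR.HK.W
import Cfsg.Agent.INV.IndexTwo
import Cfsg.Agent.INV.ThompsonTransfer

/-!
Thompson transfer in `H = C(u)`.  Notation as in `HK/W`; `D` is the class of `t`, `R = {y ∈ E | tr (κ y) = 0}`
(a subgroup: `tr` is additive; it is normalised by `Y = C(t) ∩ C(u)`: triples with `e < 2` fixing `65` preserve
`tr X = 0`), `W = C(u, t, v1, v2, i)`, `W* = W ∪ x W` (`sgn`, `xi`).
* `W` is normalised by every `g ∈ H` normalising `V`: by `W_form` it suffices to show `g i g⁻¹ ∈ W` (apply this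
  to `g, g a, g a²`).  `i' = g i g⁻¹ ∈ W*`; if `g t g⁻¹ = t` then `κ i' ∈ {130, 195}` (triples fixing `65`) and `i'`
  commutes with `i`; otherwise `[i', i] ∈ ⟨t⟩ ∩ ⟨g t g⁻¹⟩ = 1` (`sgn` for `i'` and for `g⁻¹ i g`).
* `α = x0`, `β = a x0 a⁻¹` are involutions of `H`; `α : v1 ↦ v1 t`, fixes `t, v2`; `β : v2 ↦ v2 v1`, fixes `t, v1`.
  `c = (β α)² = (β α β) α ∈ R`, `c² ∈ ⟨t⟩ ≤ W`.  So every element of `T₀ = ⟨W, α, β⟩` is `w r` with `w ∈ W` and
  `r ∈ {1, α, β, αβ, βα, αβα, βαβ, βαβα}` (closure induction); the eight words act differently on `V`, so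
  `T₀ ∩ W* = W` and `x ∉ T₀`.
* `T = {g ∈ H | g t g⁻¹ = t, g v1 g⁻¹ ∈ {v1, v1 t}, g v2 g⁻¹ ∈ v2 ⟨t, v1⟩}`; for `g ∈ T` one of the eight words acts
  on `V` as `g`, so `T = T₀ ∪ x T₀` and `T₀` has index two in `T`.  `T` is a 2-group (`W` has exponent 4,
  `r⁴ ∈ W`...; e.g. `g⁴ ∈ W*`, `g⁸ ∈ W`, `g³² = 1`) and contains `C_E(u)`.
* `T` is Sylow in `H`: let `S ≥ T` be a Sylow subgroup of `H`.  `S ≤ C(t)`: the nontrivial 2-group `S / ⟨u⟩` has a
  central `z̄ ≠ 1` (or use `CL.HU.CZ.exists_quot`); `z t z⁻¹ ∈ {t, t u}` and `t u ∉ D` (`cls`, `rk 65 = false`), so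
  `z ∈ C(t)`; its triple has `act X xor X ∈ {0, 65}` for `X ∈ [4, 8, 16, 32, 65, 130, 1 xor 0 = 1]` (all have
  `bf X 65 = false`) and `e < 2`, so it is trivial (`allT`), `z ∈ E`; `[z, C_E(u)] ≤ ⟨t⟩ ∩ ⟨u⟩ = 1` gives
  `κ z ∈ {0, 65}`, `z ∈ {t, t u, u t}`; then every `s ∈ S` has `s t s⁻¹ ∈ {t, t u}`, so `s ∈ C(t)`.
  `S ≤ T`: `s, s α', ...` are 2-elements.  For a triple `f` (`e < 2`) fixing `65`: either `f 4 = 4` and
  `f 8 ∈ {8, 12}` (then `s ∈ T`), or `f ∘ δ` is not a 2-element for one `δ` of the actions of elements of `T`: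
  use `δ ∈ {id, act 69 69 0, act 73 73 0, act 77 77 0, act 20 20 1}` and products (`ex` + ADJUST gives elements of `T`
  with these actions); "2-element": `(s δ)^(2^m) = 1` and the map `g = f ∘ δ` permutes the five points, so
  `g^60 = id` and hence `g^4 = id` on codes (`pow_gcd_eq_one` for the class of `s δ` modulo `E`, or directly:
  an element `g ∈ C(t)` with `g^60 ∈ E` and `g^(2^m) = 1` has `g^4 ∈ E`).  Check the list with python first.
* no `H`-conjugate `y` of `x` lies in `T₀`: `y² = 1`, `y ∉ D`, `y u ∉ D`, `y ∉ {1, u}` (`κ x = 194`, `κ (x u) = 131`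
  are not `rk`).  For `y ∈ R` with `y² = 1`, `y ∉ {1, u}`: `y ∈ D` or `y u ∈ D` (decide on the code; `t u * u = t`).
  `y = w r`: for `r ∈ {1, α, βαβ, βαβα} ⊆ R` use `lemP` (`w r = r (r⁻¹ w r)`); for `r = β` conjugate by `a⁻¹`,
  for `r = αβα` by `(α a)⁻¹`; `αβ`, `βα` act on `V` with order 4.
* `CL.Iso.thompson_transfer_inv` (or `CL.ThompsonTransfer.index_two_or_conj`) in the group `H`.
-/

set_option autoImplicit false

namespace CL.HK

open CL.K Subgroup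

theorem cen_mod {Γ : Type*} [Group Γ] {P K : Subgroup Γ} [Finite P] (hP : IsPGroup 2 P)
    [(K.subgroupOf P).Normal] (hne : ¬ P ≤ K) :
    ∃ s ∈ P, s ∉ K ∧ ∀ x ∈ P, s * x * s⁻¹ * x⁻¹ ∈ K := by
  have : Fact (Nat.Prime 2) := ⟨Nat.prime_two⟩
  have hnt : Nontrivial (P ⧸ K.subgroupOf P) := by
    rw [QuotientGroup.nontrivial_iff, Ne, subgroupOf_eq_top]
    exact hne
  have := (hP.to_quotient (K.subgroupOf P)).center_nontrivial
  obtain ⟨⟨z, hz⟩, hz1⟩ := exists_ne (1 : center (P ⧸ K.subgroupOf P))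
  obtain ⟨s, rfl⟩ := QuotientGroup.mk_surjective z
  refine ⟨s, s.2, fun h => hz1 (Subtype.ext ((QuotientGroup.eq_one_iff s).mpr h)), fun x hx => ?_⟩
  have h1 : ((s * ⟨x, hx⟩ * s⁻¹ * ⟨x, hx⟩⁻¹ : P) : P ⧸ K.subgroupOf P) = 1 := by
    simp only [QuotientGroup.mk_mul, QuotientGroup.mk_inv]
    rw [← mem_center_iff.mp hz]
    group
  exact (QuotientGroup.eq_one_iff (N := K.subgroupOf P) _).mp h1

theorem index_of_fun {Y : Type*} [Group Y] (T : Subgroup Y) (ψ : Y → ℕ)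
    (h : ∀ g g', g⁻¹ * g' ∈ T ↔ ψ g = ψ g') (s : Finset ℕ) (hs : Set.range ψ = s) :
    T.index = s.card := by
  have e : (Y ⧸ T) ≃ Set.range ψ :=
    (Quotient.congrRight (r' := Setoid.ker ψ) fun g g' => by
      rw [QuotientGroup.leftRel_apply, h, Setoid.ker_def]).trans (Setoid.quotientKerEquivRange ψ)
  rw [index, Nat.card_congr e, hs]
  simp

theorem Kt.κ_conj_eq {G : Type*} [Group G] {n : ℕ} {t : G} {E : Subgroup G} {κ : G → ℕ}
    (h : Kt n t E κ) {g y z : G} (hg : g * t = t * g) (hy : y ∈ E) (hz : z ∈ E) :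
    κ (g * y * g⁻¹) = κ (g * z * g⁻¹) ↔ κ y = κ z := by
  have k : ∀ g y z : G, g * t = t * g → y ∈ E → z ∈ E → κ y = κ z →
      κ (g * y * g⁻¹) = κ (g * z * g⁻¹) := fun g y z hg hy hz e => by
    rcases h.toEK.eq_or hy hz e with rfl | rfl
    · rfl
    · rw [← conj_mul, conj_of_comm hg, h.toEK.κ_mul_t (h.nrm g hg z hz)]
  refine ⟨fun e => ?_, k g y z hg hy hz⟩
  simpa [mul_assoc] using k g⁻¹ _ _ (comm_inv hg) (h.nrm g hg y hy) (h.nrm g hg z hz) e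

theorem orb15 {p r e : ℕ} (hp : SL p) (hr : SL r) (he : e < 2) (h0 : act p r e 65 = 65) :
    act p r e 4 ∈ ({4, 8, 12, 16, 32, 48, 85, 109, 121, 158, 170, 182, 219, 231, 255} : Finset ℕ) := by
  have := allT_spec (n := 2) (P := fun p r e => !Nat.beq (act p r e 65) 65 ||
    force (act p r e 4) fun X => [4, 8, 12, 16, 32, 48, 85, 109, 121, 158, 170, 182, 219, 231, 255].any
      (Nat.beq X)) (by decide +kernel) hp hr he
  simpa [h0, force_eq] using this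

theorem triv65 {p r e : ℕ} (hp : SL p) (hr : SL r) (he : e < 2)
    (H : ∀ X ∈ [4, 8, 16, 32, 65, 130, 1], act p r e X ^^^ X ∈ [0, 65]) :
    ∀ X < 256, act p r e X = X := by
  have := allT_spec (n := 2) (P := fun a b e => !([4, 8, 16, 32, 65, 130, 1].all fun X =>
    force (Nat.xor (act a b e X) X) fun Y => Nat.beq Y 0 || Nat.beq Y 65) ||
      (Nat.beq a 65 && Nat.beq b 65 && Nat.beq e 0)) (by decide +kernel) hp hr he
  rw [Bool.or_eq_true, Bool.not_eq_true', Bool.eq_false_iff] at this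
  rcases this with h1 | h1
  · refine absurd (List.all_eq_true.2 fun X hX => ?_) h1
    have h2 := H X hX
    rw [force_eq]
    change (Nat.beq (act p r e X ^^^ X) 0 || Nat.beq (act p r e X ^^^ X) 65) = true
    simpa using h2
  · simp only [Bool.and_eq_true, Nat.beq_eq] at h1
    obtain ⟨⟨rfl, rfl⟩, rfl⟩ := h1
    decide +kernel

namespace Fr

variable {G : Type*} [Group G] {t : G} {E : Subgroup G} {κ : G → ℕ} {u i x x0 v1 v2 a b : G}

section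
variable (F : Fr 2 t E κ u i x x0 v1 v2 a b)
include F

theorem w_conj {g w : G} (hg : g ∈ F.NV) (hw : w ∈ F.WW) : g * w * g⁻¹ ∈ F.WW := by
  refine F.W_le (K := (F.WW.comap (MulAut.conj g).toMonoidHom).toSubmonoid) (F.nv_iW hg) ?_ ?_ ?_ hw
  · have := F.nv_iW (F.NV.mul_mem hg F.aNV)
    rwa [show g * a * i * (g * a)⁻¹ = g * (a * i * a⁻¹) * g⁻¹ by group] at this
  · have := F.nv_iW (F.NV.mul_mem hg (F.NV.mul_mem F.aNV F.aNV))
    rwa [show g * (a * a) * i * (g * (a * a))⁻¹ = g * (a * (a * i * a⁻¹) * a⁻¹) * g⁻¹ by group] at this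
  · show g * u * g⁻¹ ∈ F.WW
    rw [conj_of_comm (F.nv_u hg)]; exact F.uW

/-- `R = {y ∈ E | tr (κ y) = 0}` -/
def R : Subgroup G where
  carrier := {y | y ∈ E ∧ tr (κ y) = 0}
  one_mem' := ⟨E.one_mem, by rw [F.ek.κ_one]; decide +kernel⟩
  mul_mem' := fun {y z} hy hz => ⟨E.mul_mem hy.1 hz.1, by
    rw [F.mul y hy.1 z hz.1, tr_xor (F.lt y hy.1) (F.lt z hz.1), hy.2, hz.2]; rfl⟩
  inv_mem' := fun {y} hy => ⟨E.inv_mem hy.1, by rw [F.ek.κ_inv hy.1]; exact hy.2⟩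

theorem mem_R {y : G} : y ∈ F.R ↔ y ∈ E ∧ tr (κ y) = 0 := Iff.rfl

theorem acY {g : G} (ht : g * t = t * g) (hu : g * u = u * g) :
    ∃ p r e, SL p ∧ SL r ∧ e < 2 ∧ act p r e 65 = 65 ∧ Ac t E κ g (act p r e) := by
  obtain ⟨p, r, e, hp, hr, he, hac⟩ := F.ac g ht
  have e0 := hac.2 u F.uE
  rw [conj_of_comm hu, F.κu] at e0
  exact ⟨p, r, e, hp, hr, he, e0.symm, hac⟩

theorem exY {p r e : ℕ} (hp : SL p) (hr : SL r) (he : e < 2) (h0 : act p r e 65 = 65) :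
    ∃ g, g * u = u * g ∧ Ac t E κ g (act p r e) := by
  obtain ⟨g, hg⟩ := F.toKt.ex hp hr he
  obtain ⟨m, hm, e1⟩ := F.toKt.adj hg F.uE F.uE (by rw [F.κu, h0]) (by rw [F.κu]; norm_num)
  exact ⟨m, comm_of_conj e1, hm⟩

theorem R_conj {g y : G} (ht : g * t = t * g) (hu : g * u = u * g) (hy : y ∈ F.R) :
    g * y * g⁻¹ ∈ F.R := by
  obtain ⟨p, r, e, hp, hr, he, h0, hac⟩ := F.acY ht hu
  exact ⟨F.nrm g ht y hy.1, by rw [hac.2 y hy.1]; exact (fix_65 hp hr he h0).2.2 _ (F.lt y hy.1) hy.2⟩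

theorem tv1 : t * v1 = v1 * t := (F.ct v1 F.v1E).symm
theorem sq1 : v1 * v1 = 1 := (F.ek.sq_one F.v1E).2 (by rw [F.κ1]; decide +kernel)
theorem sq2 : v2 * v2 = 1 := (F.ek.sq_one F.v2E).2 (by rw [F.κ2]; decide +kernel)
theorem v12 : v1 * v2 = v2 * v1 := (F.ek.comm_iff F.v1E F.v2E).2 (by rw [F.κ1, F.κ2]; decide +kernel)

theorem αα : x0 * x0 = 1 := (F.ek.sq_one F.x0E).2 (by rw [F.κx0]; decide +kernel)
theorem αu : x0 * u = u * x0 := (F.ek.comm_iff F.x0E F.uE).2 (by rw [F.κx0, F.κu]; decide +kernel)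
theorem αt : x0 * t * x0⁻¹ = t := conj_of_comm (F.ct x0 F.x0E)
theorem α1 : x0 * v1 * x0⁻¹ = v1 * t := by
  rw [F.ek.conj_eq F.x0E F.v1E, F.κx0, F.κ1, show bf 48 4 = true by decide +kernel, cond_true]
theorem α2 : x0 * v2 * x0⁻¹ = v2 := by
  rw [F.ek.conj_eq F.x0E F.v2E, F.κx0, F.κ2, show bf 48 8 = false by decide +kernel, cond_false]
theorem αR : x0 ∈ F.R := ⟨F.x0E, by rw [F.κx0]; decide +kernel⟩
theorem αNV : x0 ∈ F.NV :=
  F.nv_of F.αu (F.αt.symm ▸ F.tV) (F.α1 ▸ F.V.mul_mem F.v1V F.tV) (F.α2.symm ▸ F.v2V)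

theorem ββ : a * x0 * a⁻¹ * (a * x0 * a⁻¹) = 1 := by rw [conj_mul, F.αα]; group
theorem βNV : a * x0 * a⁻¹ ∈ F.NV := F.NV.mul_mem (F.NV.mul_mem F.aNV F.αNV) (F.NV.inv_mem F.aNV)
theorem β1 : a * x0 * a⁻¹ * v1 * (a * x0 * a⁻¹)⁻¹ = v1 := by
  calc _ = a * (x0 * t * x0⁻¹) * a⁻¹ := by rw [← F.a0]; group
    _ = _ := by rw [F.αt, F.a0]
theorem β2 : a * x0 * a⁻¹ * v2 * (a * x0 * a⁻¹)⁻¹ = v2 * v1 := by
  calc _ = a * (x0 * v1 * x0⁻¹) * a⁻¹ := by rw [← F.a1]; group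
    _ = _ := by rw [F.α1, ← conj_mul, F.a0, F.a1]
theorem βt : a * x0 * a⁻¹ * t * (a * x0 * a⁻¹)⁻¹ = t := by
  have : a * x0 * a⁻¹ * (t * v1) * (a * x0 * a⁻¹)⁻¹ = t * v1 := by
    calc _ = a * (x0 * v2 * x0⁻¹) * a⁻¹ := by rw [← F.a2]; group
      _ = _ := by rw [F.α2, F.a2]
  rwa [← conj_mul, F.β1, mul_left_inj] at this

/-- the properties of `x` which are invariant under conjugation in `C(u)` -/
def Bad (t u y : G) : Prop := y * y = 1 ∧ ¬ IsConj t y ∧ ¬ IsConj t (y * u) ∧ y ≠ 1 ∧ y ≠ u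

omit F in
theorem Bad.conj {y g : G} (h : Bad t u y) (hg : g * u = u * g) : Bad t u (g * y * g⁻¹) := by
  refine ⟨by rw [conj_mul, h.1]; group, fun c => h.2.1 (c.trans (isConj_iff.2 ⟨g, rfl⟩).symm),
    fun c => h.2.2.1 (c.trans (isConj_iff.2 ⟨g, ?_⟩).symm), fun e => h.2.2.2.1 ?_,
    fun e => h.2.2.2.2 ?_⟩
  · rw [← conj_mul, conj_of_comm hg]
  · simpa [mul_inv_eq_iff_eq_mul] using e
  · rwa [← conj_of_comm hg, mul_left_inj, mul_right_inj] at e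

theorem not_conj {y : G} (hy : y ∈ E) (h0 : κ y ≠ 0) (h1 : rk (κ y) = false) : ¬ IsConj t y :=
  fun c => ((F.cls y hy).1 c).elim (F.toKt.ne_t h0) (by rw [h1]; decide)

theorem bad_x : Bad t u x :=
  ⟨F.xx, F.not_conj F.xE (by rw [F.κx]; decide) (by rw [F.κx]; decide +kernel),
    F.not_conj (E.mul_mem F.xE F.uE) (by rw [F.mul _ F.xE _ F.uE, F.κx, F.κu]; decide)
      (by rw [F.mul _ F.xE _ F.uE, F.κx, F.κu]; decide +kernel),
    fun e => absurd F.κx (by rw [e, F.ek.κ_one]; decide),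
    fun e => absurd F.κx (by rw [e, F.κu]; decide)⟩

theorem bad_R {y : G} (h : Bad t u y) : y ∉ F.R := fun hy => by
  have hE := hy.1
  rcases (by decide +kernel : ∀ X < 256, tr X = 0 → q X = false → X = 0 ∨ X = 65 ∨ rk X = true ∨
    rk (X ^^^ 65) = true) _ (F.lt y hE) hy.2 ((F.ek.sq_one hE).1 h.1) with e | e | e | e
  · rcases (F.zero y hE).1 e with e | e
    · exact h.2.2.2.1 e
    · exact h.2.1 (e ▸ IsConj.refl _)
  · rcases F.ek.eq_or hE F.uE (e.trans F.κu.symm) with e | e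
    · exact h.2.2.2.2 e
    · refine h.2.2.1 ?_
      rw [e, mul_assoc, ← F.ct u F.uE, ← mul_assoc, F.uu, one_mul]
  · exact h.2.1 ((F.cls y hE).2 (.inr e))
  · exact h.2.2.1 ((F.cls _ (E.mul_mem hE F.uE)).2 (.inr (by rwa [F.mul _ hE _ F.uE, F.κu])))

theorem bad_P {w ρ : G} (hw : w ∈ F.WW) (hρ : ρ ∈ F.R) (hN : ρ ∈ F.NV) : ¬ Bad t u (w * ρ) :=
  fun h => by
  have hw' := F.mem_WW.1 (F.w_conj (F.NV.inv_mem hN) hw)
  obtain ⟨h1, h2, h3, h4⟩ := F.mem_Ws.1 hw'.1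
  have e : w * ρ = ρ * (ρ⁻¹ * w * ρ⁻¹⁻¹) := by group
  rw [e] at h
  exact F.bad_R h (F.lemP hρ.1 hρ.2 h1 h2 h3 h4 hw'.2 h.1)

/-- the data of the two involutions `α, β` -/
structure AB (α β : G) : Prop where
  αα : α * α = 1
  ββ : β * β = 1
  αN : α ∈ F.NV
  βN : β ∈ F.NV
  αt : α * t * α⁻¹ = t
  α1 : α * v1 * α⁻¹ = v1 * t
  α2 : α * v2 * α⁻¹ = v2
  βt : β * t * β⁻¹ = t
  β1 : β * v1 * β⁻¹ = v1
  β2 : β * v2 * β⁻¹ = v2 * v1
  αR : α ∈ F.R
  aβ : a⁻¹ * β * a = α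

theorem ab : F.AB x0 (a * x0 * a⁻¹) :=
  ⟨F.αα, F.ββ, F.αNV, F.βNV, F.αt, F.α1, F.α2, F.βt, F.β1, F.β2, F.αR, by group⟩

theorem tW : t ∈ F.WW := F.ii ▸ F.WW.mul_mem F.iW F.iW

/-- `T₀ = ⟨W, α, β⟩` -/
def T0 (α β : G) : Subgroup G := closure (F.WW ∪ {α, β})

/-- the stabiliser of the flag -/
def TT : Subgroup G where
  carrier := {g | g * t = t * g ∧ g * u = u * g ∧ κ (g * v1 * g⁻¹) = 4}
  one_mem' := ⟨by group, by group, by simpa using F.κ1⟩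
  mul_mem' := fun {g g'} hg hg' => ⟨(Commute.mul_left hg.1 hg'.1).eq, (Commute.mul_left hg.2.1 hg'.2.1).eq, by
    rw [show g * g' * v1 * (g * g')⁻¹ = g * (g' * v1 * g'⁻¹) * g⁻¹ by group, ← hg.2.2,
      F.toKt.κ_conj_eq hg.1 (F.nrm g' hg'.1 v1 F.v1E) F.v1E, hg'.2.2, F.κ1]⟩
  inv_mem' := fun {g} hg => ⟨comm_inv hg.1, comm_inv hg.2.1, by
    rw [← F.κ1, ← F.toKt.κ_conj_eq hg.1 (F.nrm _ (comm_inv hg.1) v1 F.v1E) F.v1E, hg.2.2, ← F.κ1]
    congr 1; group⟩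

theorem mem_TT {g : G} : g ∈ F.TT ↔ g * t = t * g ∧ g * u = u * g ∧ κ (g * v1 * g⁻¹) = 4 := Iff.rfl

theorem Ws_TT {g : G} (hg : g ∈ F.Ws) : g ∈ F.TT :=
  have := F.mem_Ws.1 hg
  ⟨this.2.1, this.1, by rw [conj_of_comm this.2.2.1, F.κ1]⟩

theorem ws_dich {g : G} (hg : g ∈ F.Ws) : g ∈ F.WW ∨ g * x ∈ F.WW := by
  rcases F.sgn' hg with e | e
  · exact .inl (F.mem_WW.2 ⟨hg, comm_of_conj e⟩)
  · refine .inr (F.mem_WW.2 ⟨F.Ws.mul_mem hg F.xWs, comm_of_conj ?_⟩)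
    rw [show g * x * i * (g * x)⁻¹ = g * (x * i * x⁻¹) * g⁻¹ by group, F.xi, conj_inv.symm, e, inv_inv]

end

namespace AB
variable {F : Fr 2 t E κ u i x x0 v1 v2 a b} {α β : G} (A : F.AB α β)
include A

theorem α_inv : α⁻¹ = α := inv_eq_of_mul_eq_one_right A.αα
theorem β_inv : β⁻¹ = β := inv_eq_of_mul_eq_one_right A.ββ

theorem βαβR : β * α * β ∈ F.R := by
  have := F.R_conj (comm_of_conj A.βt) (F.nv_u A.βN) A.αR
  rwa [A.β_inv] at this

theorem cR : β * α * β * α ∈ F.R := F.R.mul_mem A.βαβR A.αR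

theorem ccW : β * α * β * α * (β * α * β * α) ∈ F.WW := by
  rw [F.sq _ A.cR.1]
  cases q (κ (β * α * β * α))
  exacts [F.WW.one_mem, F.tW]

theorem c_t : β * α * β * α * t * (β * α * β * α)⁻¹ = t := conj_of_comm (F.ct _ A.cR.1)

theorem c_1 : β * α * β * α * v1 * (β * α * β * α)⁻¹ = v1 := by
  rw [show β * α * β * α * v1 * (β * α * β * α)⁻¹ =
    β * (α * (β * (α * v1 * α⁻¹) * β⁻¹) * α⁻¹) * β⁻¹ by group, A.α1, ← conj_mul (a := v1), A.β1, A.βt,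
    ← conj_mul (a := v1), A.α1, A.αt, mul_assoc v1, F.tt, mul_one, A.β1]

theorem c_2 : β * α * β * α * v2 * (β * α * β * α)⁻¹ = v2 * t := by
  rw [show β * α * β * α * v2 * (β * α * β * α)⁻¹ =
    β * (α * (β * (α * v2 * α⁻¹) * β⁻¹) * α⁻¹) * β⁻¹ by group, A.α2, A.β2, ← conj_mul (b := α), A.α1,
    A.α2, ← conj_mul (b := β), ← conj_mul (b := β), A.β1, A.β2, A.βt, mul_assoc v2, ← mul_assoc v1,
    F.sq1, one_mul]

theorem cW : β * α * β * α ∉ F.WW := fun h => by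
  have := A.c_2
  rw [conj_of_comm (F.mem_Ws.1 (F.mem_WW.1 h).1).2.2.2] at this
  exact F.t1 (by simpa using this)

theorem T0_form {g : G} (hg : g ∈ F.T0 α β) : ∃ w ∈ F.WW, ∃ r ∈ [1, α, β, α * β, β * α, α * β * α,
    β * α * β, β * α * β * α], g = w * r := by
  have hN : ∀ r ∈ [1, α, β, α * β, β * α, α * β * α, β * α * β, β * α * β * α], r ∈ F.NV := by
    have m := @F.NV.mul_mem
    simp only [List.mem_cons, List.not_mem_nil, or_false, forall_eq_or_imp, forall_eq]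
    exact ⟨F.NV.one_mem, A.αN, A.βN, m A.αN A.βN, m A.βN A.αN, m (m A.αN A.βN) A.αN,
      m (m A.βN A.αN) A.βN, m (m (m A.βN A.αN) A.βN) A.αN⟩
  have e1 : ∀ y, y * α * α = y := fun y => by rw [mul_assoc, A.αα, mul_one]
  have e2 : ∀ y, y * β * β = y := fun y => by rw [mul_assoc, A.ββ, mul_one]
  have step : ∀ g, (∃ w ∈ F.WW, ∃ r ∈ [1, α, β, α * β, β * α, α * β * α, β * α * β, β * α * β * α],
      g = w * r) → ∀ y ∈ (F.WW ∪ {α, β} : Set G), ∃ w ∈ F.WW, ∃ r ∈ [1, α, β, α * β, β * α,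
        α * β * α, β * α * β, β * α * β * α], g * y = w * r := by
    rintro _ ⟨w, hw, r, hr, rfl⟩ y hy
    rcases hy with hy | rfl | hy
    · exact ⟨_, F.WW.mul_mem hw (F.w_conj (hN r hr) hy), r, hr, by group⟩
    · refine ⟨w, hw, r * y, ?_, mul_assoc _ _ _⟩
      simp only [List.mem_cons, List.not_mem_nil, or_false] at hr
      rcases hr with rfl | rfl | rfl | rfl | rfl | rfl | rfl | rfl <;> simp [e1, A.αα]
    · obtain rfl : y = β := hy
      simp only [List.mem_cons, List.not_mem_nil, or_false] at hr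
      rcases hr with rfl | rfl | rfl | rfl | rfl | rfl | rfl | rfl
      · exact ⟨w, hw, _, by simp, mul_assoc _ _ _⟩
      · exact ⟨w, hw, _, by simp, mul_assoc _ _ _⟩
      · exact ⟨w, hw, _, by simp [A.ββ], mul_assoc _ _ _⟩
      · exact ⟨w, hw, _, by simp [e2], mul_assoc _ _ _⟩
      · exact ⟨w, hw, _, by simp, mul_assoc _ _ _⟩
      · refine ⟨_, F.WW.mul_mem hw (F.WW.inv_mem A.ccW), y * α * y * α, by simp, ?_⟩
        rw [mul_inv_rev, mul_assoc w, mul_assoc w, mul_assoc _ (y * α * y * α)⁻¹, inv_mul_cancel, mul_one]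
        simp only [mul_inv_rev, A.α_inv, A.β_inv, mul_assoc]
      · exact ⟨w, hw, _, by simp [e2], mul_assoc _ _ _⟩
      · refine ⟨_, F.WW.mul_mem hw A.ccW, α * y * α, by simp, ?_⟩
        simp only [← mul_assoc, e1, e2]
  induction hg using closure_induction_right with
  | one => exact ⟨1, F.WW.one_mem, 1, by simp, by simp⟩
  | mul_right g _ y hy ih => exact step g ih y hy
  | mul_inv_cancel g _ y hy ih =>
    refine step g ih y⁻¹ ?_
    rcases hy with hy | rfl | hy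
    · exact .inl (F.WW.inv_mem hy)
    · rw [A.α_inv]; simp
    · obtain rfl : y = β := hy
      rw [A.β_inv]; simp

theorem bad_T0 {y : G} (h : Bad t u y) : y ∉ F.T0 α β := fun hy => by
  obtain ⟨w, hw, r, hr, rfl⟩ := A.T0_form hy
  have m := @F.NV.mul_mem
  have hβ : ∀ w ∈ F.WW, ¬ Bad t u (w * β) := fun w hw h => by
    have ha := F.NV.inv_mem F.aNV
    refine F.bad_P (F.w_conj ha hw) A.αR A.αN ?_
    have := h.conj (F.nv_u ha)
    rwa [← conj_mul, show a⁻¹ * β * a⁻¹⁻¹ = α by rw [inv_inv, A.aβ]] at this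
  have hs : ∀ r ∈ F.NV, Bad t u (w * r) → r * r ∈ F.WW := fun r hr h => by
    have e : r * r = (w * (r * w * r⁻¹))⁻¹ := eq_inv_of_mul_eq_one_right (by rw [← h.1]; group)
    exact e ▸ F.WW.inv_mem (F.WW.mul_mem hw (F.w_conj hr hw))
  simp only [List.mem_cons, List.not_mem_nil, or_false] at hr
  rcases hr with rfl | rfl | rfl | rfl | rfl | rfl | rfl | rfl
  · exact F.bad_P hw F.R.one_mem F.NV.one_mem h
  · exact F.bad_P hw A.αR A.αN h
  · exact hβ w hw h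
  · refine A.cW ?_
    have := F.WW.inv_mem (hs _ (m A.αN A.βN) h)
    simpa only [mul_inv_rev, A.α_inv, A.β_inv, mul_assoc] using this
  · exact A.cW (by simpa only [mul_assoc] using hs _ (m A.βN A.αN) h)
  · refine hβ _ (F.w_conj A.αN hw) ?_
    have := h.conj (F.nv_u A.αN)
    rwa [← conj_mul, show α * (α * β * α) * α⁻¹ = β by
      rw [← mul_assoc, ← mul_assoc, A.αα]; group] at this
  · exact F.bad_P hw A.βαβR (m (m A.βN A.αN) A.βN) h
  · exact F.bad_P hw A.cR (m (m (m A.βN A.αN) A.βN) A.αN) h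

omit A in
theorem αT0 : α ∈ F.T0 α β := subset_closure (by simp)
omit A in
theorem βT0 : β ∈ F.T0 α β := subset_closure (by simp)

theorem T0_le : F.T0 α β ≤ F.TT := by
  refine (closure_le _).2 ?_
  rintro y (hy | rfl | hy)
  · exact F.Ws_TT (F.mem_WW.1 hy).1
  · exact ⟨comm_of_conj A.αt, F.nv_u A.αN, by rw [A.α1, F.ek.κ_mul_t F.v1E, F.κ1]⟩
  · obtain rfl : y = β := hy
    exact ⟨comm_of_conj A.βt, F.nv_u A.βN, by rw [A.β1, F.κ1]⟩

theorem TT_dich {g : G} (hg : g ∈ F.TT) : g * x ∈ F.T0 α β ∨ g ∈ F.T0 α β := by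
  have red : ∀ r ∈ F.T0 α β, ∀ g, (r * g * x ∈ F.T0 α β ∨ r * g ∈ F.T0 α β) →
      g * x ∈ F.T0 α β ∨ g ∈ F.T0 α β := fun r hr g h => by
    rwa [mul_assoc, mul_mem_cancel_left hr, mul_mem_cancel_left hr] at h
  have cj : ∀ r g y : G, r * g * y * (r * g)⁻¹ = r * (g * y * g⁻¹) * r⁻¹ := fun r g y => by group
  have s0 : ∀ g ∈ F.TT, g * v1 * g⁻¹ = v1 → g * v2 * g⁻¹ = v2 →
      g * x ∈ F.T0 α β ∨ g ∈ F.T0 α β := fun g hg h1 h2 =>
    (F.ws_dich (F.mem_Ws.2 ⟨hg.2.1, hg.1, comm_of_conj h1, comm_of_conj h2⟩)).symm.imp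
      (fun h => subset_closure (.inl h)) fun h => subset_closure (.inl h)
  have m := @(F.T0 α β).mul_mem
  have s1 : ∀ g ∈ F.TT, g * v1 * g⁻¹ = v1 → κ (g * v2 * g⁻¹) = 8 →
      g * x ∈ F.T0 α β ∨ g ∈ F.T0 α β := fun g hg h1 h2 => by
    rcases F.ek.eq_or (F.nrm g hg.1 v2 F.v2E) F.v2E (h2.trans F.κ2.symm) with e | e
    · exact s0 g hg h1 e
    · have hc := m (m (m βT0 αT0) βT0) αT0
      refine red _ hc g (s0 _ (F.TT.mul_mem (A.T0_le hc) hg) (by rw [cj, h1, A.c_1]) ?_)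
      rw [cj, e, ← conj_mul, A.c_2, A.c_t, mul_assoc, F.tt, mul_one]
  have s2 : ∀ g ∈ F.TT, g * v1 * g⁻¹ = v1 → g * x ∈ F.T0 α β ∨ g ∈ F.T0 α β := fun g hg h1 => by
    obtain ⟨p, r, e, hp, hr, he, h0, hac⟩ := F.acY hg.1 hg.2.1
    have k := (fix_65 hp hr he h0).2.1 (by rw [← F.κ1, ← hac.2 v1 F.v1E, h1])
    rw [← F.κ2, ← hac.2 v2 F.v2E, F.κ2] at k
    rcases k with k | k
    · exact s1 g hg h1 k
    · refine red _ βT0 g (s1 _ (F.TT.mul_mem (A.T0_le βT0) hg) (by rw [cj, h1, A.β1]) ?_)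
      have e12 := E.mul_mem F.v1E F.v2E
      rw [cj, (F.toKt.κ_conj_eq (comm_of_conj A.βt) (F.nrm g hg.1 v2 F.v2E) e12).2
        (k.trans F.κ12.symm), ← conj_mul, A.β1, A.β2, ← F.v12, ← mul_assoc, F.sq1, one_mul, F.κ2]
  rcases F.ek.eq_or (F.nrm g hg.1 v1 F.v1E) F.v1E (hg.2.2.trans F.κ1.symm) with e | e
  · exact s2 g hg e
  · refine red _ αT0 g (s2 _ (F.TT.mul_mem (A.T0_le αT0) hg) ?_)
    rw [cj, e, ← conj_mul, A.α1, A.αt, mul_assoc, F.tt, mul_one]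

theorem idx_T0 : (F.T0 α β).relIndex F.TT = 2 := by
  have hx := F.Ws_TT F.xWs
  refine index_eq_two_iff_exists_notMem_and.2 ⟨⟨x, hx⟩, A.bad_T0 F.bad_x, fun g => A.TT_dich g.2⟩

end AB

variable (F : Fr 2 t E κ u i x x0 v1 v2 a b)
include F

theorem idx_TT : F.TT.relIndex (centralizer {t} ⊓ centralizer {u}) = 15 := by
  have c1 : ∀ g : (centralizer {t} ⊓ centralizer {u} : Subgroup G), g.1 * t = t * g.1 := fun g =>
    mem_centralizer_singleton_iff.1 g.2.1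
  have c2 : ∀ g : (centralizer {t} ⊓ centralizer {u} : Subgroup G), g.1 * u = u * g.1 := fun g =>
    mem_centralizer_singleton_iff.1 g.2.2
  refine (index_of_fun _ (fun g => κ (g.1 * v1 * g.1⁻¹)) (fun g g' => ?_)
    {4, 8, 12, 16, 32, 48, 85, 109, 121, 158, 170, 182, 219, 231, 255} ?_).trans (by decide +kernel)
  · have e : κ ((g⁻¹ * g').1 * v1 * (g⁻¹ * g').1⁻¹) = 4 ↔
        κ (g.1 * v1 * g.1⁻¹) = κ (g'.1 * v1 * g'.1⁻¹) := by
      rw [← F.κ1, ← F.toKt.κ_conj_eq (c1 g) (F.nrm _ (c1 _) v1 F.v1E) F.v1E, eq_comm]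
      simp [mul_assoc]
    rw [mem_subgroupOf, F.mem_TT, e]
    exact ⟨fun h => h.2.2, fun h => ⟨c1 _, c2 _, h⟩⟩
  · refine Set.Subset.antisymm ?_ fun X hX => ?_
    · rintro _ ⟨g, rfl⟩
      obtain ⟨p, r, e, hp, hr, he, h0, hac⟩ := F.acY (c1 g) (c2 g)
      simp only [hac.2 v1 F.v1E, F.κ1]
      exact orb15 hp hr he h0
    · obtain ⟨p, -, hp, hr, he, h0, h1⟩ := (by decide +kernel : ∀ X ∈ ({4, 8, 12, 16, 32, 48, 85, 109,
        121, 158, 170, 182, 219, 231, 255} : Finset ℕ), ∃ p ∈ [(20, 20, 1), (44, 44, 1), (56, 56, 1),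
          (20, 20, 0), (56, 56, 0), (44, 44, 0), (21, 84, 0), (58, 184, 0), (47, 236, 0), (22, 148, 0),
          (59, 248, 0), (45, 108, 0), (23, 212, 0), (57, 120, 0), (46, 172, 0)],
          (p.1 < 256 ∧ det p.1 = 1) ∧ (p.2.1 < 256 ∧ det p.2.1 = 1) ∧ p.2.2 < 2 ∧
            act p.1 p.2.1 p.2.2 65 = 65 ∧ act p.1 p.2.1 p.2.2 4 = X) X hX
      obtain ⟨g, hu, hac⟩ := F.exY hp hr he h0
      exact ⟨⟨g, mem_centralizer_singleton_iff.2 hac.1, mem_centralizer_singleton_iff.2 hu⟩, by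
        simp only [hac.2 v1 F.v1E, F.κ1, h1]⟩

theorem tu_not : ¬ IsConj t (u * t) :=
  F.not_conj (E.mul_mem F.uE F.tE) (by rw [F.ek.κ_mul_t F.uE, F.κu]; decide)
    (by rw [F.ek.κ_mul_t F.uE, F.κu]; decide +kernel)

theorem pE : IsPGroup 2 E := fun y => ⟨2, Subtype.ext (by
  rw [SubgroupClass.coe_pow, show 2 ^ 2 = 2 * 2 from rfl, pow_mul, pow_two (y : G), F.sq _ y.2]
  cases q (κ y) <;> simp [pow_two, F.tt])⟩

/-- an element of `C(u)` centralising `C_E(u)` modulo `u` -/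
theorem cen_u {z : G} (h : ∀ y ∈ E, y * u = u * y → z * y * z⁻¹ * y⁻¹ ∈ zpowers u) :
    z ∈ E ∧ κ z ∈ [0, 65] := by
  have zp : ∀ y ∈ zpowers u, y = 1 ∨ y = u := fun y hy => by
    obtain ⟨k, rfl⟩ := mem_zpowers_iff.1 hy
    rcases Int.even_or_odd' k with ⟨m, rfl | rfl⟩
    · left; rw [zpow_mul, zpow_two, F.uu, one_zpow]
    · right; rw [zpow_add, zpow_mul, zpow_two, F.uu, one_zpow, one_mul, zpow_one]
  have zt : z * t = t * z := by
    rcases zp _ (h t F.tE (F.ct u F.uE).symm) with e | e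
    · exact comm_of_conj (mul_inv_eq_one.1 e)
    · exact absurd (isConj_iff.2 ⟨z, mul_inv_eq_iff_eq_mul.1 e⟩) F.tu_not
  have lift : ∀ X ∈ [4, 8, 16, 32, 65, 130, 1], ∃ y ∈ E, κ y = X ∧ y * u = u * y := fun X hX => by
    have hX' : X < 256 ∧ bf X 65 = false := by revert X; decide +kernel
    obtain ⟨y, hy, rfl⟩ := F.surj X hX'.1
    exact ⟨y, hy, rfl, (F.ek.comm_iff hy F.uE).2 (F.κu ▸ hX'.2)⟩
  obtain ⟨p, r, e, hp, hr, he, hac⟩ := F.ac z zt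
  have zE : z ∈ E := F.ker z (hac.congr F.ek (triv65 hp hr he fun X hX => by
    obtain ⟨y, hy, rfl, hu⟩ := lift X hX
    rw [← hac.2 y hy, ← F.ek.κ_inv hy, F.ek.κ_inv hy, ← F.ek.κ_inv hy,
      ← F.mul _ (F.nrm z zt y hy) _ (E.inv_mem hy)]
    rcases zp _ (h y hy hu) with e | e <;> rw [e]
    · rw [F.ek.κ_one]; decide
    · rw [F.κu]; decide))
  refine ⟨zE, (by decide +kernel : ∀ Z < 256, (∀ X ∈ [4, 8, 16, 32, 65, 130, 1], bf Z X = false) →
    Z ∈ [0, 65]) _ (F.lt z zE) fun X hX => ?_⟩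
  obtain ⟨y, hy, rfl, hu⟩ := lift X hX
  rcases zp _ (h y hy hu) with e | e
  · exact (F.ek.comm_iff zE hy).1 (comm_of_conj (mul_inv_eq_one.1 e))
  · have := congrArg κ e
    rw [F.mul _ (F.nrm z zt y hy) _ (E.inv_mem hy), F.ek.κ_conj zE hy, F.ek.κ_inv hy, Nat.xor_self,
      F.κu] at this
    exact absurd this (by decide)

theorem idx_Y [Finite G] :
    Odd ((centralizer {t} ⊓ centralizer {u} : Subgroup G).relIndex (centralizer {u})) := by
  have : Fact (Nat.Prime 2) := ⟨Nat.prime_two⟩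
  have c2 : ∀ g : (centralizer {u} : Subgroup G), g.1 * u = u * g.1 := fun g =>
    mem_centralizer_singleton_iff.1 g.2
  obtain ⟨S, hS⟩ := (F.pE.comap_subtype (K := centralizer {u})).exists_le_sylow
  have hn : (((zpowers u).subgroupOf (centralizer {u})).subgroupOf S).Normal := ⟨fun y hy g => by
    have hy' : (y.1 : G) ∈ zpowers u := hy
    obtain ⟨k, hk⟩ := mem_zpowers_iff.1 hy'
    show (g.1 : G) * y.1 * (g.1 : G)⁻¹ ∈ zpowers u
    rw [← hk, ← conj_zpow, conj_of_comm (c2 g.1)]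
    exact zpow_mem (mem_zpowers u) k⟩
  have tH : t ∈ centralizer {u} := mem_centralizer_singleton_iff.2 (F.ct u F.uE).symm
  have uu' : ∀ y ∈ zpowers u, κ y = 0 → y = 1 := fun y hy h0 => by
    obtain ⟨k, rfl⟩ := mem_zpowers_iff.1 hy
    rcases Int.even_or_odd' k with ⟨m, rfl | rfl⟩
    · rw [zpow_mul, zpow_two, F.uu, one_zpow]
    · rw [zpow_add, zpow_mul, zpow_two, F.uu, one_zpow, one_mul, zpow_one, F.κu] at h0
      exact absurd h0 (by decide)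
  obtain ⟨z, hz, hz1, hz2⟩ := cen_mod (K := (zpowers u).subgroupOf (centralizer {u})) S.isPGroup'
    fun h => F.t1 (uu' t (h (hS (show (⟨t, tH⟩ : centralizer {u}) ∈ E.comap _ from F.tE))) F.ek.κ_t)
  obtain ⟨zE, zκ⟩ := F.cen_u (z := z.1) fun y hy hu =>
    hz2 ⟨y, mem_centralizer_singleton_iff.2 hu⟩ (hS hy)
  have zt : ∃ k ∈ zpowers u, z.1 = k * t := by
    simp only [List.mem_cons, List.not_mem_nil, or_false] at zκ
    rcases zκ with e | e
    · rcases (F.zero _ zE).1 e with e | e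
      · exact absurd (show z.1 ∈ zpowers u from e ▸ one_mem _) hz1
      · exact ⟨1, one_mem _, by rw [e, one_mul]⟩
    · rcases F.ek.eq_or zE F.uE (e.trans F.κu.symm) with e | e
      · exact absurd (show z.1 ∈ zpowers u by rw [e]; exact mem_zpowers _) hz1
      · exact ⟨u, mem_zpowers _, e⟩
  obtain ⟨k, hk, zt⟩ := zt
  have hle : (S : Subgroup (centralizer {u} : Subgroup G)) ≤
      (centralizer {t} ⊓ centralizer {u} : Subgroup G).subgroupOf (centralizer {u}) := fun s hs => by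
    refine ⟨mem_centralizer_singleton_iff.2 ?_, s.2⟩
    have h1 : z.1 * s.1 * z.1⁻¹ * s.1⁻¹ ∈ zpowers u := hz2 s hs
    obtain ⟨m, rfl⟩ := mem_zpowers_iff.1 hk
    have h2 : s.1 * u ^ m * s.1⁻¹ = u ^ m := by rw [← conj_zpow, conj_of_comm (c2 s)]
    have h3 : t * u ^ m = u ^ m * t := ((show Commute u t from F.ct u F.uE).zpow_left m).eq.symm
    have h4 : z.1 * s.1 * z.1⁻¹ * s.1⁻¹ = t * (s.1 * t * s.1⁻¹)⁻¹ := by
      calc _ = z.1 * (s.1 * z.1 * s.1⁻¹)⁻¹ := by group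
        _ = _ := by rw [zt, ← h3, ← conj_mul, h2]; group
    rw [h4] at h1
    obtain ⟨l, hl⟩ := mem_zpowers_iff.1 h1
    rcases Int.even_or_odd' l with ⟨m, rfl | rfl⟩
    · rw [zpow_mul, zpow_two, F.uu, one_zpow, eq_comm, mul_inv_eq_one] at hl
      exact comm_of_conj hl.symm
    · rw [zpow_add, zpow_mul, zpow_two, F.uu, one_zpow, one_mul, zpow_one] at hl
      refine absurd (isConj_iff.2 ⟨s.1, ?_⟩) F.tu_not
      calc _ = (t * (s.1 * t * s.1⁻¹)⁻¹)⁻¹ * t := by group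
        _ = _ := by rw [← hl, inv_eq_of_mul_eq_one_right F.uu]
  exact (CL.Iso.sylow_two_odd_index S).of_dvd_nat (index_dvd_of_le hle)

omit F in
theorem exists_M [Finite G] (F : Fr 2 t E κ u i x x0 v1 v2 a b) :
    ∃ M : Subgroup (Subgroup.centralizer ({u} : Set G)), M.Normal ∧ M.index = 2 ∧
      ∀ hx, (⟨x, hx⟩ : Subgroup.centralizer ({u} : Set G)) ∉ M := by
  have A := F.ab
  have hx : x ∈ centralizer {u} := mem_centralizer_singleton_iff.2 (F.mem_Ws.1 F.xWs).1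
  have l1 : F.TT ≤ centralizer {t} ⊓ centralizer {u} := fun g hg =>
    ⟨mem_centralizer_singleton_iff.2 hg.1, mem_centralizer_singleton_iff.2 hg.2.1⟩
  obtain ⟨M, h1, h2, h3⟩ := CL.ThompsonTransfer.exists_index_two_of_not_conj
    ((F.T0 x0 (a * x0 * a⁻¹)).subgroupOf (centralizer {u}))
    (m := 15 * (centralizer {t} ⊓ centralizer {u} : Subgroup G).relIndex (centralizer {u}))
    (by rw [← A.idx_T0, ← F.idx_TT, relIndex_mul_relIndex _ _ _ l1 inf_le_right,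
      relIndex_mul_relIndex _ _ _ A.T0_le (l1.trans inf_le_right)]; rfl)
    (Odd.mul (by decide) F.idx_Y) (u := ⟨x, hx⟩) (Subtype.ext F.xx)
    fun g => A.bad_T0 (F.bad_x.conj (mem_centralizer_singleton_iff.1 g.2))
  exact ⟨M, h1, h2, fun _ => h3⟩

end Fr

end CL.HK
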